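import Cfsg.Agent.H950.E8X.EpsC

/-!
# S5915: the Steinberg block, part D (helper950)

`EPS` : the part `A` of an `SL₂(64)`-module without Steinberg factors.
-/

set_option autoImplicit false
set_option linter.unusedSectionVars false

namespace Cfsg.Agent.H950.E8X

open Matrix Cfsg.Agent.H943.SL2Rel Cfsg.Agent.H943.RepAdd Cfsg.Agent.H943.SL2Mod Cfsg.Agent.H939.L64

section Dim

variable {k : Type*} [Field k] [CharP k 2] {F : Type*} [Field F] [Fintype F] [DecidableEq F] (ι : F →+* k)

theorem finrank_Vb_le (b : ℕ) : Module.finrank k (Vb ι b) ≤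
    ((Finset.range (b + 1)).filter (fun m => b.choose m % 2 = 1)).card := by
  classical
  have h1 : Vb ι b ≤ Submodule.span k
      (((((Finset.range (b + 1)).filter (fun m => b.choose m % 2 = 1)).image (fun m => mon ι b m) :
        Finset (F × F → k))) : Set (F × F → k)) := by
    refine (Vb_le ι b).trans (Submodule.span_mono ?_)
    rintro _ ⟨m, ⟨hm, hc⟩, rfl⟩
    rw [Finset.coe_image]
    refine ⟨m, ?_, rfl⟩
    rw [Finset.mem_coe, Finset.mem_filter, Finset.mem_range]
    refine ⟨by omega, ?_⟩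
    by_contra h0
    apply hc
    rw [CharP.cast_eq_zero_iff k 2]
    omega
  haveI : FiniteDimensional k (Submodule.span k
      (((((Finset.range (b + 1)).filter (fun m => b.choose m % 2 = 1)).image (fun m => mon ι b m) :
        Finset (F × F → k))) : Set (F × F → k))) := FiniteDimensional.span_finset k _
  exact (Submodule.finrank_mono h1).trans ((finrank_span_finset_le_card _).trans Finset.card_image_le)

theorem finrank_Vb_small {b : ℕ} (hb : b < 63) (hp : pat 3 b ≠ 0) : Module.finrank k (Vb ι b) ≤ 4 := by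
  refine (finrank_Vb_le ι b).trans ?_
  revert b
  decide +kernel

theorem finrank_Vb_big (hF : Fintype.card F = 64) : 16 < Module.finrank k (Vb ι 63) := by
  classical
  let v : F → Vb ι 63 := fun t => ⟨fRep k F (u t) (fRep k F w (mon ι 63 63)), mem_MM _ t (mon_mem_Db ι 63)⟩
  have hv : ∀ t x y, (v t : F × F → k) (x, y) = if x * t + y = 0 then 0 else 1 := by
    intro t x y
    show fRep k F (u t) (fRep k F w (mon ι 63 63)) (x, y) = _
    rw [fRep_u, fRep_w, mon_self]
    by_cases h0 : x * t + y = 0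
    · rw [if_pos h0, h0, neg_zero, map_zero, zero_pow (by decide)]
    · rw [if_neg h0, ← map_pow]
      have h1 := FiniteField.pow_card_sub_one_eq_one (-(x * t + y)) (neg_ne_zero.2 h0)
      rw [hF] at h1
      rw [h1, map_one]
  have hli : LinearIndependent k v := by
    rw [Fintype.linearIndependent_iff]
    intro c hc s
    have h1 : ∀ x y, ∑ t, c t * (if x * t + y = 0 then 0 else 1) = 0 := by
      intro x y
      have h2 : ((∑ t, c t • v t : Vb ι 63) : F × F → k) (x, y) = ((0 : Vb ι 63) : F × F → k) (x, y) := by rw [hc]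
      rw [AddSubmonoidClass.coe_finset_sum, Finset.sum_apply] at h2
      rw [show ((0 : Vb ι 63) : F × F → k) (x, y) = 0 from rfl] at h2
      refine Eq.trans (Finset.sum_congr rfl fun t _ => ?_) h2
      show _ = c t * (v t : F × F → k) (x, y)
      rw [hv]
    have h2 := h1 0 1
    have h3 := h1 1 (-s)
    simp only [zero_mul, zero_add, one_mul] at h2 h3
    have h4 : ∑ t, c t * (if (1 : F) = 0 then 0 else 1) - ∑ t, c t * (if t + -s = 0 then 0 else 1) = c s := by
      rw [← Finset.sum_sub_distrib, Finset.sum_eq_single s]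
      · rw [if_neg one_ne_zero, if_pos (add_neg_cancel s), mul_one, mul_zero, sub_zero]
      · intro t _ hts
        rw [if_neg one_ne_zero, if_neg (fun h0 => hts (by rwa [← sub_eq_add_neg, sub_eq_zero] at h0)), sub_self]
      · intro h0
        exact absurd (Finset.mem_univ _) h0
    rw [h2, h3, sub_zero] at h4
    exact h4.symm
  haveI : FiniteDimensional k (Vb ι 63) := by
    have h1 : Vb ι 63 ≤ Submodule.span k
        (((Finset.range 64).image (fun m => mon ι 63 m) : Finset (F × F → k)) : Set (F × F → k)) := by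
      refine (Vb_le ι 63).trans (Submodule.span_mono ?_)
      rintro _ ⟨m, ⟨hm, -⟩, rfl⟩
      rw [Finset.coe_image]
      exact ⟨m, by rw [Finset.mem_coe, Finset.mem_range]; omega, rfl⟩
    haveI := FiniteDimensional.span_finset k ((Finset.range 64).image (fun m => mon ι 63 m) : Finset (F × F → k))
    exact Submodule.finiteDimensional_of_le h1
  have h5 := hli.fintype_card_le_finrank
  rw [hF] at h5
  omega

end Dim

section Main

variable {k : Type} [Field k] [CharP k 2] {F : Type} [Field F] [Fintype F] [DecidableEq F] [CharP F 2] {ι : F →+* k}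
  {lam : Fˣ} {y : SpecialLinearGroup (Fin 2) F} {ζ : k}

/-- modules on which `eps` is injective -/
theorem big_of_inj (D : Dat ι lam y ζ) (R : RF ι lam y ζ) {V : Type} [AddCommGroup V] [Module k V]
    [FiniteDimensional k V] (ρ : Representation k (SpecialLinearGroup (Fin 2) F) V)
    (h0 : ∀ v, eps ρ v = 0 → v = 0) (W : Submodule k V) (hW : ∀ g, ∀ x ∈ W, ρ g x ∈ W) (hne : W ≠ ⊥) :
    16 < Module.finrank k W := by
  haveI : Nontrivial W := Submodule.nontrivial_iff_ne_bot.2 hne
  obtain ⟨W', hW', h1, hmin⟩ := exists_irr_sub (subRep ρ W hW)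
  obtain ⟨b, hb, hV⟩ := R.r1 _ (irr_subRep (subRep ρ W hW) W' hW' h1 hmin)
  have hV' : IsV ι b (subRep ρ W hW) W' := IsV_sub _ W' hW' hV
  obtain ⟨x, hx, hx0⟩ := Submodule.exists_mem_ne_zero_of_ne_bot h1
  have h2 := eps_IsV ι D.card (subRep ρ W hW) hb hV' hx
  have hb63 : b = 63 := by
    by_contra h63
    rw [if_neg h63] at h2
    apply hx0
    apply Subtype.ext
    apply h0
    rw [← eps_sub ρ W hW, h2]
    rfl
  subst hb63
  have h3 := finrank_IsV (subRep ρ W hW) W' hV'
  have h4 := finrank_Vb_big ι D.card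
  have h5 := Submodule.finrank_le W'
  omega

/-- no vector fixed by `y` -/
theorem fix_of_inj (D : Dat ι lam y ζ) (R : RF ι lam y ζ) {V : Type} [AddCommGroup V] [Module k V]
    [FiniteDimensional k V] (ρ : Representation k (SpecialLinearGroup (Fin 2) F) V)
    (h0 : ∀ v, eps ρ v = 0 → v = 0) (v : V) (hv : ρ y v = v) : v = 0 := by
  obtain ⟨m, hm, hp⟩ := spec_poly D R (y_pow D) (minpoly k (eps ρ)) _ ρ rfl (fun v => by
    rw [minpoly.aeval]
    rfl)
  have h1 : ∀ b < 64, b ≠ 63 → m b = 0 := by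
    intro b hb h63
    by_contra hne
    have h2 := hp b hb hne
    rw [if_neg h63] at h2
    have h3 : (minpoly k (eps ρ)).IsRoot 0 := h2
    rw [← Module.End.hasEigenvalue_iff_isRoot] at h3
    obtain ⟨x, hx⟩ := h3.exists_hasEigenvector
    apply hx.2
    apply h0
    rw [Module.End.mem_eigenspace_iff.1 hx.1, zero_smul]
  have h2 := hm.1 0 (by decide)
  have h3 : ∑ b ∈ Finset.range 64, m b * w65 b 0 = 0 := by
    refine Finset.sum_eq_zero fun b hb => ?_
    by_cases h63 : b = 63
    · rw [h63, show w65 63 0 = 0 by decide +kernel, mul_zero]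
    · rw [h1 b (Finset.mem_range.1 hb) h63, zero_mul]
  rw [h3] at h2
  have h4 : eig ρ y (ζ ^ 0) = ⊥ := Submodule.finrank_eq_zero.1 h2
  have h5 : v ∈ eig ρ y (ζ ^ 0) := by
    rw [mem_eig, pow_zero, one_smul, hv]
  rw [h4] at h5
  exact (Submodule.mem_bot k).1 h5

/-- the uniqueness of the multiplicities (R3b of the plan, over `ℕ`) -/
def Uniq : Prop := ∀ m m' : ℕ → ℤ,
  (∀ j < 65, ∑ b ∈ Finset.range 64, m b * (w65 b j : ℤ) = ∑ b ∈ Finset.range 64, m' b * (w65 b j : ℤ)) →
  (∀ j < 63, ∑ b ∈ Finset.range 64, m b * (w63 b j : ℤ) = ∑ b ∈ Finset.range 64, m' b * (w63 b j : ℤ)) →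
  ∀ b < 64, m b = m' b

theorem Uniq.spec (U : Uniq) {V : Type} [AddCommGroup V] [Module k V]
    {ρ : Representation k (SpecialLinearGroup (Fin 2) F) V} {m m' : ℕ → ℕ}
    (h : SpecM ι ρ lam y ζ m) (h' : SpecM ι ρ lam y ζ m') : ∀ b < 64, m b = m' b := by
  intro b hb
  have h1 := U (fun b => (m b : ℤ)) (fun b => (m' b : ℤ)) (fun j hj => ?_) (fun j hj => ?_) b hb
  · exact_mod_cast h1
  · have h2 := (h.1 j hj).symm.trans (h'.1 j hj)
    exact_mod_cast h2
  · have h2 := (h.2 j hj).symm.trans (h'.2 j hj)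
    exact_mod_cast h2

/-- small steps -/
theorem steps (D : Dat ι lam y ζ) (R : RF ι lam y ζ) (Q : Uniq) {V : Type} [AddCommGroup V] [Module k V]
    [FiniteDimensional k V] (ρ : Representation k (SpecialLinearGroup (Fin 2) F) V) (hm : SpecM ι ρ lam y ζ (pat 3))
    (n : ℕ) (U : Submodule k V) (hle : U ≤ LinearMap.ker (eps ρ ^ n)) (hU : ∀ g, ∀ x ∈ U, ρ g x ∈ U) (hne : U ≠ ⊥) :
    ∃ U' : Submodule k V, U' < U ∧ (∀ g, ∀ x ∈ U', ρ g x ∈ U') ∧
      Module.finrank k U ≤ Module.finrank k U' + 4 := by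
  haveI : Nontrivial U := Submodule.nontrivial_iff_ne_bot.2 hne
  set r := subRep ρ U hU with hr
  obtain ⟨W, hW, h1, hmax⟩ := exists_max_sub r
  have hI := irr_quotRep r W hW h1 hmax
  obtain ⟨b, hb, hV⟩ := R.r1 _ hI
  -- `b ≠ 63`
  have h63 : b ≠ 63 := by
    rintro rfl
    haveI : Nontrivial (U ⧸ W) := hI.1
    obtain ⟨x, hx0⟩ := exists_ne (0 : U ⧸ W)
    obtain ⟨v, rfl⟩ := W.mkQ_surjective x
    have h2 : ∀ z : U ⧸ W, eps (quotRep r W hW) z = z := fun z => by
      rw [eps_IsV ι D.card (quotRep r W hW) (by decide) hV (Submodule.mem_top (x := z)), if_pos rfl]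
    have h3 : ∀ j : ℕ, (eps (quotRep r W hW) ^ j) (W.mkQ v) = W.mkQ v := by
      intro j
      induction j with
      | zero => rfl
      | succ j ih => rw [pow_succ, Module.End.mul_apply, h2, ih]
    apply hx0
    rw [← h3 n, ← pow_intertw W.mkQ (eps r) (eps (quotRep r W hW)) (fun v => (eps_quot r W hW v).symm)]
    have h4 : (eps r ^ n) v = 0 := by
      apply Subtype.ext
      have h5 := pow_intertw U.subtype (eps r) (eps ρ) (fun v => eps_sub ρ U hU v) n v
      have h6 : (eps ρ ^ n) (v : V) = 0 := LinearMap.mem_ker.1 (hle v.2)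
      exact h5.trans h6
    rw [h4, map_zero]
  -- multiplicities
  obtain ⟨m1, hm1, -⟩ := spec_poly D R (y_pow D) 0 _ (subRep r W hW) rfl (fun v => by rw [map_zero]; rfl)
  obtain ⟨m2, hm2, -⟩ := spec_poly D R (y_pow D) 0 _ (quotRep ρ U hU) rfl (fun v => by rw [map_zero]; rfl)
  have hm3 := spec_irr R (quotRep r W hW) hb hV
  have hm4 := spec_add D (y_pow D) ρ U hU (spec_add D (y_pow D) r W hW hm1 hm3) hm2
  have hp : pat 3 b ≠ 0 := by
    have h5 := Q.spec hm hm4 b hb
    rw [h5]
    show m1 b + (if b = b then 1 else 0) + m2 b ≠ 0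
    rw [if_pos rfl]
    omega
  refine ⟨W.map U.subtype, ?_, ?_, ?_⟩
  · refine lt_of_le_of_ne (Submodule.map_subtype_le U W) fun h0 => h1 ?_
    rw [Submodule.eq_top_iff']
    intro x
    have h6 : (x : V) ∈ W.map U.subtype := by rw [h0]; exact x.2
    obtain ⟨z, hz, e⟩ := h6
    rwa [← Subtype.ext (p := fun z => z ∈ U) e]
  · rintro g _ ⟨x, hx, rfl⟩
    exact ⟨_, hW g x hx, rfl⟩
  · rw [Submodule.finrank_map_subtype_eq]
    have h6 := Submodule.finrank_quotient_add_finrank W
    have h7 := finrank_IsV (quotRep r W hW) ⊤ hV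
    rw [finrank_top] at h7
    have h8 := finrank_Vb_small ι (b := b) (by omega) hp
    omega

/-- **EPS** -/
theorem EPS' (D : Dat ι lam y ζ) (R : RF ι lam y ζ) (Q : Uniq) {V : Type} [AddCommGroup V] [Module k V]
    [FiniteDimensional k V]
    (ρ : Representation k (SpecialLinearGroup (Fin 2) F) V) (B : V →ₗ[k] V →ₗ[k] k)
    (hB : ∀ g v w, B (ρ g v) (ρ g w) = B v w) (hnd : ∀ v, (∀ w, B v w = 0) → v = 0)
    (br : V →ₗ[k] V →ₗ[k] V) (hbr : ∀ g v w, ρ g (br v w) = br (ρ g v) (ρ g w)) (hm : SpecM ι ρ lam y ζ (pat 3)) :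
    ∃ A : Submodule k V, A ≠ ⊥ ∧ A ≠ ⊤ ∧
      (∀ (n : V ≃ₗ[k] V), (∃ τ : SpecialLinearGroup (Fin 2) F ≃* SpecialLinearGroup (Fin 2) F, ∀ g v, n (ρ g v) = ρ (τ g) (n v)) →
        ∀ v ∈ A, n v ∈ A) ∧
      (∀ v, ρ y v = v → v ∈ A) ∧ (∀ a ∈ A, ∀ b ∈ A, br a b ∈ A) ∧ (∀ a ∈ A, (∀ b ∈ A, B a b = 0) → a = 0) := by
  set N := Module.finrank k V with hN
  set A : Submodule k V := LinearMap.ker (eps ρ ^ N) with hA
  have hAinv : ∀ g, ∀ x ∈ A, ρ g x ∈ A := by
    intro g x hx
    rw [hA, LinearMap.mem_ker] at hx ⊢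
    rw [← pow_intertw (ρ g) (eps ρ) (eps ρ) (fun v => eps_comm ρ g v), hx, map_zero]
  have hinj : ∀ z, eps (quotRep ρ A hAinv) z = 0 → z = 0 := by
    intro z hz
    obtain ⟨v, rfl⟩ := A.mkQ_surjective z
    rw [eps_quot] at hz
    rw [Submodule.mkQ_apply, Submodule.Quotient.mk_eq_zero] at hz ⊢
    rw [hA, LinearMap.mem_ker, ← Module.End.mul_apply, ← pow_succ] at hz
    have h1 : v ∈ LinearMap.ker (eps ρ ^ (N + 1)) := hz
    rwa [Module.End.ker_pow_eq_ker_pow_finrank_of_le (Nat.le_succ N)] at h1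
  have hfix : ∀ v, ρ y v = v → v ∈ A := by
    intro v hv
    have h1 := fix_of_inj D R (quotRep ρ A hAinv) hinj (A.mkQ v) (by rw [quotRep_mk, hv])
    rwa [Submodule.mkQ_apply, Submodule.Quotient.mk_eq_zero] at h1
  refine ⟨A, ?_, ?_, ?_, hfix, ?_, ?_⟩
  · intro h0
    have h1 := hm.1 0 (by decide)
    have h2 : ∑ b ∈ Finset.range 64, pat 3 b * w65 b 0 = 12 := by decide +kernel
    rw [h2] at h1
    have h3 : eig ρ y (ζ ^ 0) = ⊥ := by
      rw [Submodule.eq_bot_iff]
      intro v hv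
      rw [mem_eig, pow_zero, one_smul] at hv
      have h4 := hfix v hv
      rw [h0] at h4
      exact (Submodule.mem_bot k).1 h4
    have h5 : e65 ρ y ζ 0 = 0 := by
      unfold e65
      rw [h3, finrank_bot]
    omega
  · intro h0
    obtain ⟨m, hm', hp⟩ := spec_poly D R (y_pow D) (Polynomial.X ^ N) _ ρ rfl (fun v => by
      rw [map_pow, Polynomial.aeval_X]
      have h1 : v ∈ A := by rw [h0]; trivial
      exact LinearMap.mem_ker.1 h1)
    have h1 : m 63 = 0 := by
      by_contra hne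
      have h2 := hp 63 (by decide) hne
      rw [if_pos rfl, Polynomial.eval_pow, Polynomial.eval_X, one_pow] at h2
      exact one_ne_zero h2
    have h2 := Q.spec hm hm' 63 (by decide)
    rw [h1] at h2
    revert h2
    decide
  · rintro n ⟨τ, hτ⟩ v hv
    rw [hA, LinearMap.mem_ker] at hv ⊢
    have h1 := pow_intertw (n : V →ₗ[k] V) (eps ρ) (eps ρ)
      (fun v => eps_comm' ρ τ (n : V →ₗ[k] V) (fun g v => hτ g v) v) N v
    have h2 : (n : V →ₗ[k] V) v = n v := rfl
    rw [← h2, ← h1, hv, map_zero]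
  · intro a ha b hb
    have h1 := bil_zero ρ (quotRep ρ A hAinv) (br.compr₂ A.mkQ) (fun g v w => by
        rw [LinearMap.compr₂_apply, LinearMap.compr₂_apply, quotRep_mk, hbr])
      (fun W hW hne => big_of_inj D R (quotRep ρ A hAinv) hinj W hW hne) A
      (fun U hle hU hne => steps D R Q ρ hm N U hle hU hne) _ A A le_rfl le_rfl hAinv hAinv rfl a ha b hb
    rw [LinearMap.compr₂_apply, Submodule.mkQ_apply, Submodule.Quotient.mk_eq_zero] at h1
    exact h1
  · intro a ha hab
    -- `eps` is self-adjoint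
    have hadj : ∀ v w, B (eps ρ v) w = B v (eps ρ w) := by
      intro v w
      rw [eps_apply, eps_apply, map_sum, map_sum, LinearMap.sum_apply]
      refine Finset.sum_nbij' (fun g => g⁻¹) (fun g => g⁻¹) ?_ ?_ ?_ ?_ ?_
      · intro g hg
        rw [Finset.mem_filter] at hg ⊢
        refine ⟨Finset.mem_univ _, fun h1 => hg.2 ?_⟩
        rw [← _root_.mul_inv_rev] at h1
        exact inv_eq_one.1 h1
      · intro g hg
        rw [Finset.mem_filter] at hg ⊢
        refine ⟨Finset.mem_univ _, fun h1 => hg.2 ?_⟩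
        rw [← _root_.mul_inv_rev] at h1
        exact inv_eq_one.1 h1
      · intro g _
        exact inv_inv g
      · intro g _
        exact inv_inv g
      · intro g _
        rw [← hB g⁻¹ (ρ g v) w, ← Module.End.mul_apply (ρ g⁻¹) (ρ g) v, ← map_mul, inv_mul_cancel, map_one]
        rfl
    have hadjn : ∀ (j : ℕ) v w, B ((eps ρ ^ j) v) w = B v ((eps ρ ^ j) w) := by
      intro j
      induction j with
      | zero => intro v w; rfl
      | succ j ih =>
        intro v w
        rw [pow_succ, Module.End.mul_apply, ih, hadj, ← Module.End.mul_apply, ← pow_succ', ← pow_succ]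
    apply hnd
    intro w
    -- `w = w₀ + eps ^ N w₁`
    obtain ⟨n0, hn0⟩ := Filter.eventually_atTop.1 (LinearMap.eventually_isCompl_ker_pow_range_pow (eps ρ))
    have hcompl := hn0 (max n0 N) (le_max_left _ _)
    have hker : LinearMap.ker (eps ρ ^ (max n0 N)) = A :=
      Module.End.ker_pow_eq_ker_pow_finrank_of_le (le_max_right _ _)
    rw [hker] at hcompl
    have h1 : w ∈ A ⊔ LinearMap.range (eps ρ ^ (max n0 N)) := by rw [hcompl.sup_eq_top]; trivial
    obtain ⟨w0, hw0, _, ⟨w1, rfl⟩, rfl⟩ := Submodule.mem_sup.1 h1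
    have ha' : (eps ρ ^ (max n0 N)) a = 0 := by
      have h2 := ha
      rw [← hker] at h2
      exact LinearMap.mem_ker.1 h2
    rw [map_add, hab w0 hw0, zero_add, ← hadjn, ha', map_zero, LinearMap.zero_apply]

end Main

end Cfsg.Agent.H950.E8X
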