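import Cfsg.Agent.H939.L64.DefR

/-!
# S5915: the block idempotent of the Steinberg module of `SL₂(64)` (helper950)

`eps ρ = ∑ ρ g` over the elements `g` with `g * g ≠ 1` (the nontrivial elements of odd order): it acts as `0` on
`V_b`, `b < 63`, and as `1` on `V_63`.
-/

set_option autoImplicit false
set_option linter.unusedSectionVars false

namespace Cfsg.Agent.H950.E8X

open Matrix Cfsg.Agent.H943.SL2Rel Cfsg.Agent.H943.RepAdd Cfsg.Agent.H943.SL2Mod Cfsg.Agent.H939.L64

section Gen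

variable {k G V : Type*} [Field k] [Group G] [Fintype G] [DecidableEq G] [AddCommGroup V] [Module k V]

/-- the sum of the elements with `g * g ≠ 1` -/
def eps (ρ : Representation k G V) : Module.End k V := ∑ g ∈ Finset.univ.filter (fun g : G => g * g ≠ 1), ρ g

theorem eps_apply (ρ : Representation k G V) (v : V) :
    eps ρ v = ∑ g ∈ Finset.univ.filter (fun g : G => g * g ≠ 1), ρ g v := by
  unfold eps
  rw [LinearMap.sum_apply]

/-- `eps` commutes with everything normalising the group -/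
theorem eps_comm' (ρ : Representation k G V) (σ : G ≃* G) (T : Module.End k V) (h : ∀ g v, T (ρ g v) = ρ (σ g) (T v))
    (v : V) : T (eps ρ v) = eps ρ (T v) := by
  rw [eps_apply, eps_apply, map_sum]
  refine Finset.sum_nbij' (fun g => σ g) (fun g => σ.symm g) ?_ ?_ ?_ ?_ ?_
  · intro g hg
    rw [Finset.mem_filter] at hg ⊢
    refine ⟨Finset.mem_univ _, fun h1 => hg.2 ?_⟩
    rw [← map_mul] at h1
    exact (map_eq_one_iff σ σ.injective).1 h1
  · intro g hg
    rw [Finset.mem_filter] at hg ⊢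
    refine ⟨Finset.mem_univ _, fun h1 => hg.2 ?_⟩
    rw [← map_mul] at h1
    exact (map_eq_one_iff σ.symm σ.symm.injective).1 h1
  · intro g _
    exact σ.symm_apply_apply g
  · intro g _
    exact σ.apply_symm_apply g
  · intro g _
    exact h g v

theorem eps_comm (ρ : Representation k G V) (a : G) (v : V) : ρ a (eps ρ v) = eps ρ (ρ a v) := by
  refine eps_comm' ρ (MulAut.conj a) (ρ a) (fun g w => ?_) v
  rw [MulAut.conj_apply]
  show (ρ a * ρ g) w = (ρ (a * g * a⁻¹) * ρ a) w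
  rw [← map_mul, ← map_mul, inv_mul_cancel_right]

end Gen

section SL

variable {k : Type*} [Field k] [CharP k 2] {F : Type*} [Field F] [Fintype F] [DecidableEq F] [CharP F 2]

theorem mul_u (g : SpecialLinearGroup (Fin 2) F) (s : F) : (g * u s).1 0 0 = g.1 0 0 ∧ (g * u s).1 1 0 = g.1 1 0 ∧
    (g * u s).1 0 1 = g.1 0 0 * s + g.1 0 1 ∧ (g * u s).1 1 1 = g.1 1 0 * s + g.1 1 1 := by
  have e : (g * u s).1 = g.1 * !![1, s; 0, 1] := rfl
  rw [e]
  simp [Matrix.mul_apply, Fin.sum_univ_two]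

theorem u_one_ne : (u (1 : F) : SpecialLinearGroup (Fin 2) F) ≠ 1 := by
  intro h0
  have h1 := congrArg (fun g : SpecialLinearGroup (Fin 2) F => g.1 0 1) h0
  have h2 : (u (1 : F) : SpecialLinearGroup (Fin 2) F).1 0 1 = 1 := rfl
  have h3 : (1 : SpecialLinearGroup (Fin 2) F).1 0 1 = 0 := by simp
  simp only [h2, h3] at h1
  exact one_ne_zero h1

theorem mul_u_u (g : SpecialLinearGroup (Fin 2) F) : g * u 1 * u 1 = g := by
  rw [mul_assoc, ← u_add, CharTwo.add_self_eq_zero, u_zero, mul_one]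

theorem sum_all (φ : F → F → k) : ∑ g : SpecialLinearGroup (Fin 2) F, φ (g.1 0 0) (g.1 1 0) = 0 := by
  refine Finset.sum_involution (fun g _ => g * u 1) ?_ ?_ ?_ ?_
  · intro g _
    rw [(mul_u g 1).1, (mul_u g 1).2.1]
    exact CharTwo.add_self_eq_zero _
  · intro g _ _ h0
    exact u_one_ne (mul_eq_left.1 h0)
  · intro g _
    exact Finset.mem_univ _
  · intro g _
    exact mul_u_u g

theorem det_eq (g : SpecialLinearGroup (Fin 2) F) : g.1 0 0 * g.1 1 1 + g.1 0 1 * g.1 1 0 = 1 := by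
  have h1 := g.2
  rw [Matrix.det_fin_two, CharTwo.sub_eq_add] at h1
  exact h1

theorem sq_eq_one (g : SpecialLinearGroup (Fin 2) F) : g * g = 1 ↔ g.1 1 1 = g.1 0 0 := by
  have hd := det_eq g
  have e : (g * g).1 = g.1 * g.1 := rfl
  constructor
  · intro h0
    have h1 : ∀ i j, (g.1 * g.1) i j = (1 : Matrix (Fin 2) (Fin 2) F) i j := by
      intro i j
      rw [← e, h0]
      rfl
    have a00 := h1 0 0
    have a01 := h1 0 1
    simp only [Matrix.mul_apply, Fin.sum_univ_two, Matrix.one_apply_eq] at a00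
    rw [Matrix.mul_apply, Fin.sum_univ_two, Matrix.one_apply_ne (by decide)] at a01
    have b1 : g.1 0 0 * (g.1 0 0 + g.1 1 1) = 0 := by
      have : g.1 0 0 * (g.1 0 0 + g.1 1 1) = (g.1 0 0 * g.1 0 0 + g.1 0 1 * g.1 1 0) + (g.1 0 0 * g.1 1 1 + g.1 0 1 * g.1 1 0)
          - (g.1 0 1 * g.1 1 0 + g.1 0 1 * g.1 1 0) := by ring
      rw [this, a00, hd, CharTwo.add_self_eq_zero, CharTwo.add_self_eq_zero, sub_zero]
    have b2 : g.1 0 1 * (g.1 0 0 + g.1 1 1) = 0 := by
      rw [← a01]; ring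
    by_contra hne
    have h3 : g.1 0 0 + g.1 1 1 ≠ 0 := by
      intro h4
      apply hne
      have := eq_neg_of_add_eq_zero_left h4
      rw [CharTwo.neg_eq] at this
      exact this.symm
    have c1 := (mul_eq_zero.1 b1).resolve_right h3
    have c2 := (mul_eq_zero.1 b2).resolve_right h3
    rw [c1, c2, zero_mul, zero_mul, add_zero] at hd
    exact zero_ne_one hd
  · intro h0
    rw [h0] at hd
    refine Subtype.ext ?_
    rw [e]
    ext i j
    rw [Matrix.mul_apply, Fin.sum_univ_two]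
    fin_cases i <;> fin_cases j
    · show g.1 0 0 * g.1 0 0 + g.1 0 1 * g.1 1 0 = (1 : Matrix (Fin 2) (Fin 2) F) 0 0
      rw [hd, Matrix.one_apply_eq]
    · show g.1 0 0 * g.1 0 1 + g.1 0 1 * g.1 1 1 = (1 : Matrix (Fin 2) (Fin 2) F) 0 1
      rw [h0, Matrix.one_apply_ne (by decide), mul_comm, CharTwo.add_self_eq_zero]
    · show g.1 1 0 * g.1 0 0 + g.1 1 1 * g.1 1 0 = (1 : Matrix (Fin 2) (Fin 2) F) 1 0
      rw [h0, Matrix.one_apply_ne (by decide), mul_comm, CharTwo.add_self_eq_zero]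
    · show g.1 1 0 * g.1 0 1 + g.1 1 1 * g.1 1 1 = (1 : Matrix (Fin 2) (Fin 2) F) 1 1
      rw [h0, Matrix.one_apply_eq, mul_comm (g.1 1 0), add_comm, hd]

/-- the involution with first column `(a, c)` -/
def iv (a c : F) (hc : c ≠ 0) : SpecialLinearGroup (Fin 2) F :=
  ⟨!![a, (1 + a * a) * c⁻¹; c, a], by
    rw [Matrix.det_fin_two_of, CharTwo.sub_eq_add, mul_assoc, inv_mul_cancel₀ hc, mul_one, add_comm, add_assoc,
      CharTwo.add_self_eq_zero, add_zero]⟩

theorem sum_invol (φ : F → F → k) : ∑ g ∈ Finset.univ.filter (fun g : SpecialLinearGroup (Fin 2) F => g * g = 1),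
    φ (g.1 0 0) (g.1 1 0) = ∑ x ∈ (Finset.univ : Finset F) ×ˢ Finset.univ.filter (fun c : F => c ≠ 0), φ x.1 x.2 := by
  rw [← Finset.sum_filter_add_sum_filter_not _ (fun g : SpecialLinearGroup (Fin 2) F => g.1 1 0 = 0)]
  have h0 : ∑ g ∈ (Finset.univ.filter (fun g : SpecialLinearGroup (Fin 2) F => g * g = 1)).filter
      (fun g => g.1 1 0 = 0), φ (g.1 0 0) (g.1 1 0) = 0 := by
    refine Finset.sum_involution (fun g _ => g * u 1) ?_ ?_ ?_ ?_
    · intro g _
      rw [(mul_u g 1).1, (mul_u g 1).2.1]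
      exact CharTwo.add_self_eq_zero _
    · intro g _ _ h0
      exact u_one_ne (mul_eq_left.1 h0)
    · intro g hg
      rw [Finset.mem_filter, Finset.mem_filter, sq_eq_one] at hg ⊢
      refine ⟨⟨Finset.mem_univ _, ?_⟩, ?_⟩
      · rw [(mul_u g 1).1, (mul_u g 1).2.2.2, hg.2, zero_mul, zero_add, hg.1.2]
      · rw [(mul_u g 1).2.1, hg.2]
    · intro g _
      exact mul_u_u g
  rw [h0, zero_add]
  symm
  refine Finset.sum_bij' (fun x hx => iv x.1 x.2 (Finset.mem_filter.1 (Finset.mem_product.1 hx).2).2)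
    (fun g _ => (g.1 0 0, g.1 1 0)) ?_ ?_ ?_ ?_ ?_
  · intro x hx
    rw [Finset.mem_filter, Finset.mem_filter, sq_eq_one]
    exact ⟨⟨Finset.mem_univ _, rfl⟩, (Finset.mem_filter.1 (Finset.mem_product.1 hx).2).2⟩
  · intro g hg
    rw [Finset.mem_product, Finset.mem_filter]
    exact ⟨Finset.mem_univ _, Finset.mem_univ _, (Finset.mem_filter.1 hg).2⟩
  · intro x _
    rfl
  · intro g hg
    rw [Finset.mem_filter, Finset.mem_filter, sq_eq_one] at hg
    obtain ⟨⟨-, h1⟩, hc⟩ := hg
    have hd := det_eq g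
    rw [h1] at hd
    refine Subtype.ext ?_
    ext i j
    fin_cases i <;> fin_cases j
    · rfl
    · show (1 + g.1 0 0 * g.1 0 0) * (g.1 1 0)⁻¹ = g.1 0 1
      have e1 : (1 : F) + g.1 0 0 * g.1 0 0 = g.1 0 1 * g.1 1 0 := by
        have e2 : (1 : F) + g.1 0 0 * g.1 0 0 = (g.1 0 0 * g.1 0 0 + g.1 0 1 * g.1 1 0) + g.1 0 0 * g.1 0 0 :=
          congrArg (· + g.1 0 0 * g.1 0 0) hd.symm
        rw [e2, add_comm, ← add_assoc, CharTwo.add_self_eq_zero, zero_add]
      rw [e1, mul_assoc, mul_inv_cancel₀ hc, mul_one]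
    · rfl
    · exact h1.symm
  · intro x _
    rfl

variable (ι : F →+* k)

theorem eps_mon (hF : Fintype.card F = 64) {b : ℕ} (hb : b < 64) :
    eps (fRep k F) (mon ι b b) = if b = 63 then mon ι b b else 0 := by
  have hc0 : ((Fintype.card F : ℕ) : k) = 0 := by
    rw [hF, CharP.cast_eq_zero_iff k 2]
    decide
  funext z
  obtain ⟨x, y⟩ := z
  have h1 : eps (fRep k F) (mon ι b b) (x, y) = ∑ g ∈ Finset.univ.filter
      (fun g : SpecialLinearGroup (Fin 2) F => g * g ≠ 1), ι (x * g.1 0 0 + y * g.1 1 0) ^ b := by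
    rw [eps_apply, Finset.sum_apply]
    refine Finset.sum_congr rfl fun g _ => ?_
    show mon ι b b _ = _
    rw [mon_self]
  have h2 : ∑ g ∈ Finset.univ.filter (fun g : SpecialLinearGroup (Fin 2) F => g * g ≠ 1),
      ι (x * g.1 0 0 + y * g.1 1 0) ^ b = ∑ g ∈ Finset.univ.filter
      (fun g : SpecialLinearGroup (Fin 2) F => g * g = 1), ι (x * g.1 0 0 + y * g.1 1 0) ^ b := by
    have h3 := Finset.sum_filter_add_sum_filter_not Finset.univ (fun g : SpecialLinearGroup (Fin 2) F => g * g = 1)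
      (fun g => ι (x * g.1 0 0 + y * g.1 1 0) ^ b)
    rw [sum_all (fun a c => ι (x * a + y * c) ^ b)] at h3
    have h4 := eq_neg_of_add_eq_zero_right h3
    rw [CharTwo.neg_eq] at h4
    exact h4
  rw [h1, h2, sum_invol (fun a c => ι (x * a + y * c) ^ b), Finset.sum_product_right]
  by_cases hx : x = 0
  · subst hx
    have h5 : ∑ c ∈ Finset.univ.filter (fun c : F => c ≠ 0), ∑ a : F, ι (0 * a + y * c) ^ b = 0 := by
      refine Finset.sum_eq_zero fun c _ => ?_
      simp only [zero_mul, zero_add]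
      rw [Finset.sum_const, Finset.card_univ, ← Nat.cast_smul_eq_nsmul k, hc0, zero_smul]
    rw [h5]
    by_cases h63 : b = 63
    · rw [if_pos h63, mon_self, map_zero, zero_pow (by omega)]
    · rw [if_neg h63]
      rfl
  · have h6 : ∀ c : F, ∑ a : F, ι (x * a + y * c) ^ b = ι (∑ s : F, s ^ b) := by
      intro c
      rw [map_sum]
      refine Fintype.sum_equiv ((Equiv.mulLeft₀ x hx).trans (Equiv.addRight (y * c))) _ _ fun t => ?_
      rw [map_pow]
      rfl
    rw [Finset.sum_congr rfl fun c _ => h6 c, Finset.sum_const]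
    by_cases h63 : b = 63
    · rw [if_pos h63, mon_self]
      have e1 : b = Fintype.card F - 1 := by rw [hF]; exact h63
      have e2 : (Finset.univ.filter (fun c : F => c ≠ 0)).card = 63 := by
        rw [Finset.filter_ne', Finset.card_erase_of_mem (Finset.mem_univ _), Finset.card_univ, hF]
      have e3 : ι x ^ b = 1 := by
        rw [e1, ← map_pow, FiniteField.pow_card_sub_one_eq_one x hx, map_one]
      rw [e2, e3, e1, sum_pow_card, CharTwo.neg_eq, map_one, nsmul_one]
      show ((63 : ℕ) : k) = 1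
      have e4 : ((63 : ℕ) : k) = ((1 + 2 * 31 : ℕ) : k) := by norm_num
      have e5 : ((2 : ℕ) : k) = 0 := CharP.cast_eq_zero k 2
      rw [e4, Nat.cast_add, Nat.cast_mul, Nat.cast_one, e5, zero_mul, add_zero]
    · rw [if_neg h63, FiniteField.sum_pow_lt_card_sub_one _ b (by rw [hF]; omega), map_zero, smul_zero]
      rfl

/-- **`eps` on `V_b`** -/
theorem eps_Vb (hF : Fintype.card F = 64) {b : ℕ} (hb : b < 64) {f : F × F → k} (hf : f ∈ Vb ι b) :
    eps (fRep k F) f = if b = 63 then f else 0 := by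
  induction hf using Submodule.span_induction with
  | mem x hx =>
    obtain ⟨t, d, hd, rfl⟩ := hx
    obtain ⟨c, rfl⟩ := Submodule.mem_span_singleton.1 hd
    rw [← eps_comm, ← eps_comm, map_smul (eps (fRep k F)), eps_mon ι hF hb]
    by_cases h63 : b = 63
    · rw [if_pos h63, if_pos h63]
    · rw [if_neg h63, if_neg h63, smul_zero, map_zero, map_zero]
  | zero => rw [map_zero]; by_cases h63 : b = 63 <;> simp [h63]
  | add x y _ _ hx hy =>
    rw [map_add, hx, hy]
    by_cases h63 : b = 63 <;> simp [h63]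
  | smul a x _ hx =>
    rw [map_smul, hx]
    by_cases h63 : b = 63 <;> simp [h63]

/-- `eps` on a submodule isomorphic to `V_b` -/
theorem eps_IsV (hF : Fintype.card F = 64) {V : Type*} [AddCommGroup V] [Module k V]
    (ρ : Representation k (SpecialLinearGroup (Fin 2) F) V) {b : ℕ} (hb : b < 64) {W : Submodule k V}
    (h : IsV ι b ρ W) {v : V} (hv : v ∈ W) : eps ρ v = if b = 63 then v else 0 := by
  obtain ⟨φ, h1, h2, h3⟩ := h
  rw [← h2] at hv
  obtain ⟨f, hf, rfl⟩ := hv
  have h4 : eps ρ (φ f) = φ (eps (fRep k F) f) := by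
    rw [eps_apply, eps_apply, map_sum]
    exact Finset.sum_congr rfl fun g _ => ((h1 g f hf).2).symm
  rw [h4, eps_Vb ι hF hb hf]
  by_cases h63 : b = 63 <;> simp [h63]

end SL

end Cfsg.Agent.H950.E8X
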