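import Cfsg.Agent.H950.E8X.EpsA

/-!
# S5915: the Steinberg block of an `SL₂(64)`-module (helper950)

`RF` : the facts R1, R2 of the plan. `spec_poly` : composition multiplicities and a polynomial relation of `eps`.
-/

set_option autoImplicit false
set_option linter.unusedSectionVars false

namespace Cfsg.Agent.H950.E8X

open Matrix Cfsg.Agent.H943.SL2Rel Cfsg.Agent.H943.RepAdd Cfsg.Agent.H943.SL2Mod Cfsg.Agent.H939.L64

/-- the facts R1, R2 of the plan -/
structure RF {k : Type} [Field k] {F : Type} [Field F] [Fintype F] [DecidableEq F] (ι : F →+* k) (lam : Fˣ)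
    (y : SpecialLinearGroup (Fin 2) F) (ζ : k) : Prop where
  r1 : ∀ {V : Type} [AddCommGroup V] [Module k V] [FiniteDimensional k V]
    (ρ : Representation k (SpecialLinearGroup (Fin 2) F) V), Irr ρ → ∃ b < 64, IsV ι b ρ ⊤
  r2 : ∀ {V : Type} [AddCommGroup V] [Module k V] [FiniteDimensional k V]
    (ρ : Representation k (SpecialLinearGroup (Fin 2) F) V) (W : Submodule k V) (hW : ∀ g, ∀ x ∈ W, ρ g x ∈ W)
    {b : ℕ}, b < 64 → IsV ι b ρ W → (∀ j < 65, e65 (subRep ρ W hW) y ζ j = w65 b j) ∧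
      ∀ j < 63, e63 ι (subRep ρ W hW) lam j = w63 b j

/-- polynomials and intertwining maps -/
theorem aeval_intertw {k V M : Type*} [Field k] [AddCommGroup V] [Module k V] [AddCommGroup M] [Module k M]
    (f : V →ₗ[k] M) (S : Module.End k V) (T : Module.End k M) (h : ∀ v, f (S v) = T (f v)) (p : Polynomial k) (v : V) :
    f (Polynomial.aeval S p v) = Polynomial.aeval T p (f v) := by
  have hn : ∀ (n : ℕ) (v : V), f ((S ^ n) v) = (T ^ n) (f v) := by
    intro n
    induction n with
    | zero => intro v; rfl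
    | succ n ih =>
      intro v
      rw [pow_succ, pow_succ, Module.End.mul_apply, Module.End.mul_apply, ih, h]
  induction p using Polynomial.induction_on' with
  | add p q hp hq => rw [map_add, map_add, LinearMap.add_apply, LinearMap.add_apply, map_add, hp, hq]
  | monomial n a =>
    rw [Polynomial.aeval_monomial, Polynomial.aeval_monomial, Module.End.mul_apply, Module.End.mul_apply,
      Module.algebraMap_end_apply, Module.algebraMap_end_apply, map_smul, hn]

theorem pow_intertw {k V M : Type*} [Field k] [AddCommGroup V] [Module k V] [AddCommGroup M] [Module k M]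
    (f : V →ₗ[k] M) (S : Module.End k V) (T : Module.End k M) (h : ∀ v, f (S v) = T (f v)) (n : ℕ) (v : V) :
    f ((S ^ n) v) = (T ^ n) (f v) := by
  have := aeval_intertw f S T h (Polynomial.X ^ n) v
  rwa [map_pow, map_pow, Polynomial.aeval_X, Polynomial.aeval_X] at this

theorem aeval_eig {k V : Type*} [Field k] [AddCommGroup V] [Module k V] (S : Module.End k V) {c : k} {v : V}
    (h : S v = c • v) (p : Polynomial k) : Polynomial.aeval S p v = p.eval c • v := by
  have hn : ∀ (n : ℕ), (S ^ n) v = c ^ n • v := by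
    intro n
    induction n with
    | zero => rw [pow_zero, pow_zero, one_smul]; rfl
    | succ n ih => rw [pow_succ, Module.End.mul_apply, h, map_smul, ih, smul_smul, pow_succ, mul_comm]
  induction p using Polynomial.induction_on' with
  | add p q hp hq => rw [map_add, LinearMap.add_apply, hp, hq, Polynomial.eval_add, add_smul]
  | monomial n a =>
    rw [Polynomial.aeval_monomial, Module.End.mul_apply, Module.algebraMap_end_apply, hn, smul_smul,
      Polynomial.eval_monomial]

section Quot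

variable {k : Type*} [Field k] {G V : Type*} [Group G] [AddCommGroup V] [Module k V]
  (ρ : Representation k G V) (W : Submodule k V) (hW : ∀ g, ∀ x ∈ W, ρ g x ∈ W)

theorem eps_sub [Fintype G] [DecidableEq G] (x : W) : ((eps (subRep ρ W hW) x : W) : V) = eps ρ x := by
  rw [eps_apply, eps_apply]
  exact (map_sum W.subtype _ _).trans rfl

theorem eps_quot [Fintype G] [DecidableEq G] (x : V) : eps (quotRep ρ W hW) (W.mkQ x) = W.mkQ (eps ρ x) := by
  rw [eps_apply, eps_apply, map_sum]
  rfl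

/-- maximal invariant subspaces -/
theorem exists_max_sub [FiniteDimensional k V] [Nontrivial V] : ∃ (W : Submodule k V)
    (_ : ∀ g, ∀ x ∈ W, ρ g x ∈ W), W ≠ ⊤ ∧
    ∀ W' : Submodule k V, W ≤ W' → (∀ g, ∀ x ∈ W', ρ g x ∈ W') → W' = W ∨ W' = ⊤ := by
  obtain ⟨W, ⟨h1, h2⟩, hmax⟩ := (wellFounded_gt (α := Submodule k V)).has_min
    {W : Submodule k V | W ≠ ⊤ ∧ ∀ g, ∀ x ∈ W, ρ g x ∈ W} ⟨⊥, bot_ne_top, fun g x hx => by
      rw [Submodule.mem_bot] at hx ⊢
      rw [hx, map_zero]⟩
  refine ⟨W, h2, h1, fun W' hle hW' => ?_⟩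
  by_contra hcon
  push Not at hcon
  exact hmax W' ⟨hcon.2, hW'⟩ (lt_of_le_of_ne hle (Ne.symm hcon.1))

end Quot

section

variable {k : Type*} [Field k] {F : Type*} [Field F] {V : Type*} [AddCommGroup V] [Module k V]
  (ρ : Representation k (SpecialLinearGroup (Fin 2) F) V) (W : Submodule k V) (hW : ∀ g, ∀ x ∈ W, ρ g x ∈ W)

theorem irr_subRep (h0 : W ≠ ⊥) (hmin : ∀ W' ≤ W, (∀ g, ∀ x ∈ W', ρ g x ∈ W') → W' = ⊥ ∨ W' = W) :
    Irr (subRep ρ W hW) := by
  refine ⟨Submodule.nontrivial_iff_ne_bot.2 h0, fun W' hW' => ?_⟩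
  have hinv : ∀ g, ∀ x ∈ W'.map W.subtype, ρ g x ∈ W'.map W.subtype := by
    rintro g _ ⟨x, hx, rfl⟩
    exact ⟨_, hW' g x hx, rfl⟩
  rcases hmin _ (Submodule.map_subtype_le W W') hinv with h1 | h1
  · left
    rw [Submodule.eq_bot_iff]
    intro x hx
    have h2 : (x : V) ∈ W'.map W.subtype := ⟨x, hx, rfl⟩
    rw [h1, Submodule.mem_bot] at h2
    exact Subtype.ext h2
  · right
    rw [Submodule.eq_top_iff']
    intro x
    have h2 : (x : V) ∈ W'.map W.subtype := by rw [h1]; exact x.2
    obtain ⟨z, hz, e⟩ := h2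
    rwa [← Subtype.ext (p := fun z => z ∈ W) e]

theorem irr_quotRep (h0 : W ≠ ⊤)
    (hmax : ∀ W' : Submodule k V, W ≤ W' → (∀ g, ∀ x ∈ W', ρ g x ∈ W') → W' = W ∨ W' = ⊤) :
    Irr (quotRep ρ W hW) := by
  refine ⟨Submodule.Quotient.nontrivial_iff.2 h0, fun X hX => ?_⟩
  have hinv : ∀ g, ∀ x ∈ X.comap W.mkQ, ρ g x ∈ X.comap W.mkQ := by
    intro g x hx
    rw [Submodule.mem_comap] at hx ⊢
    rw [← quotRep_mk ρ W hW]
    exact hX g _ hx
  have hle : W ≤ X.comap W.mkQ := by
    intro x hx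
    rw [Submodule.mem_comap, Submodule.mkQ_apply, (Submodule.Quotient.mk_eq_zero W).2 hx]
    exact X.zero_mem
  rcases hmax _ hle hinv with h1 | h1
  · left
    rw [Submodule.eq_bot_iff]
    intro x hx
    obtain ⟨v, rfl⟩ := W.mkQ_surjective x
    have h2 : v ∈ X.comap W.mkQ := hx
    rw [h1] at h2
    exact (Submodule.Quotient.mk_eq_zero W).2 h2
  · right
    rw [Submodule.eq_top_iff']
    intro x
    obtain ⟨v, rfl⟩ := W.mkQ_surjective x
    have h2 : v ∈ X.comap W.mkQ := by rw [h1]; trivial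
    exact h2

variable [Fintype F] [DecidableEq F] {ι : F →+* k}

theorem IsV_sub {b : ℕ} (h : IsV ι b (subRep ρ W hW) ⊤) : IsV ι b ρ W := by
  obtain ⟨φ, h1, h2, h3⟩ := h
  refine ⟨W.subtype ∘ₗ φ, fun g f hf => ⟨(h1 g f hf).1, ?_⟩, ?_, fun f hf e => h3 f hf (Subtype.ext e)⟩
  · show ((φ (fRep k F g f) : W) : V) = ρ g (φ f : W)
    rw [(h1 g f hf).2]
    rfl
  · rw [Submodule.map_comp, h2, Submodule.map_top, Submodule.range_subtype]

theorem finrank_IsV [FiniteDimensional k V] {b : ℕ} (h : IsV ι b ρ W) :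
    Module.finrank k W = Module.finrank k (Vb ι b) := by
  obtain ⟨φ, -, h2, h3⟩ := h
  let f : Vb ι b →ₗ[k] W := (φ ∘ₗ (Vb ι b).subtype).codRestrict W fun x => by
    rw [← h2]
    exact ⟨x, x.2, rfl⟩
  refine (LinearEquiv.finrank_eq (LinearEquiv.ofBijective f ⟨?_, ?_⟩)).symm
  · rw [injective_iff_map_eq_zero]
    intro x hx
    exact Subtype.ext (h3 x x.2 (congrArg Subtype.val hx))
  · rintro ⟨x, hx⟩
    rw [← h2] at hx
    obtain ⟨z, hz, e⟩ := hx
    exact ⟨⟨z, hz⟩, Subtype.ext e⟩

end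

section Add

variable {k : Type} [Field k] [CharP k 2] {F : Type} [Field F] [Fintype F] [DecidableEq F] {ι : F →+* k}
  {lam : Fˣ} {y : SpecialLinearGroup (Fin 2) F} {ζ : k}

theorem e65_add (D : Dat ι lam y ζ) (hy : y ^ 65 = 1) {V : Type} [AddCommGroup V] [Module k V] [FiniteDimensional k V]
    (ρ : Representation k (SpecialLinearGroup (Fin 2) F) V) (W : Submodule k V) (hW : ∀ g, ∀ x ∈ W, ρ g x ∈ W) (j : ℕ) :
    e65 ρ y ζ j = e65 (subRep ρ W hW) y ζ j + e65 (quotRep ρ W hW) y ζ j := by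
  refine finrank_eig (n := 65) ρ W hW ?_ ?_ ?_ ?_
  · rw [← map_pow, hy, map_one]
  · intro h0
    rw [CharP.cast_eq_zero_iff k 2] at h0
    revert h0
    decide
  · rw [← pow_mul, mul_comm, pow_mul, D.prim.pow_eq_one, one_pow]
  · exact pow_ne_zero _ (D.prim.ne_zero (by decide))

theorem e63_add (D : Dat ι lam y ζ) {V : Type} [AddCommGroup V] [Module k V] [FiniteDimensional k V]
    (ρ : Representation k (SpecialLinearGroup (Fin 2) F) V) (W : Submodule k V) (hW : ∀ g, ∀ x ∈ W, ρ g x ∈ W) (j : ℕ) :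
    e63 ι ρ lam j = e63 ι (subRep ρ W hW) lam j + e63 ι (quotRep ρ W hW) lam j := by
  have h1 : (lam : F) ^ 63 = 1 := by
    have := FiniteField.pow_card_sub_one_eq_one (lam : F) lam.ne_zero
    rwa [D.card] at this
  refine finrank_eig (n := 63) ρ W hW ?_ ?_ ?_ ?_
  · rw [← map_pow, ← h_pow]
    have h2 : lam ^ 63 = 1 := Units.ext (by rw [Units.val_pow_eq_pow_val, h1]; rfl)
    rw [h2, h_one, map_one]
  · intro h0
    rw [CharP.cast_eq_zero_iff k 2] at h0
    revert h0
    decide
  · rw [← pow_mul, mul_comm, pow_mul, ← map_pow, h1, map_one, one_pow]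
  · exact pow_ne_zero _ ((map_ne_zero ι).2 lam.ne_zero)

theorem spec_add (D : Dat ι lam y ζ) (hy : y ^ 65 = 1) {V : Type} [AddCommGroup V] [Module k V]
    [FiniteDimensional k V]
    (ρ : Representation k (SpecialLinearGroup (Fin 2) F) V) (W : Submodule k V) (hW : ∀ g, ∀ x ∈ W, ρ g x ∈ W)
    {m m' : ℕ → ℕ} (h : SpecM ι (subRep ρ W hW) lam y ζ m) (h' : SpecM ι (quotRep ρ W hW) lam y ζ m') :
    SpecM ι ρ lam y ζ (fun b => m b + m' b) := by
  constructor
  · intro j hj
    rw [e65_add D hy ρ W hW, h.1 j hj, h'.1 j hj, ← Finset.sum_add_distrib]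
    exact Finset.sum_congr rfl fun b _ => (add_mul _ _ _).symm
  · intro j hj
    rw [e63_add D ρ W hW, h.2 j hj, h'.2 j hj, ← Finset.sum_add_distrib]
    exact Finset.sum_congr rfl fun b _ => (add_mul _ _ _).symm

theorem spec_single (R : RF ι lam y ζ) {V : Type} [AddCommGroup V] [Module k V]
    [FiniteDimensional k V]
    (ρ : Representation k (SpecialLinearGroup (Fin 2) F) V) (W : Submodule k V) (hW : ∀ g, ∀ x ∈ W, ρ g x ∈ W)
    {b : ℕ} (hb : b < 64) (h : IsV ι b ρ W) :
    SpecM ι (subRep ρ W hW) lam y ζ (fun c => if c = b then 1 else 0) := by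
  have hs : ∀ f : ℕ → ℕ, ∑ c ∈ Finset.range 64, (if c = b then 1 else 0) * f c = f b := by
    intro f
    rw [Finset.sum_eq_single b]
    · rw [if_pos rfl, one_mul]
    · intro c _ hc
      rw [if_neg hc, zero_mul]
    · intro h0
      exact absurd (Finset.mem_range.2 hb) h0
  obtain ⟨h1, h2⟩ := R.r2 ρ W hW hb h
  exact ⟨fun j hj => by rw [h1 j hj, hs fun c => w65 c j], fun j hj => by rw [h2 j hj, hs fun c => w63 c j]⟩

/-- the multiplicities of an irreducible representation -/
theorem spec_irr (R : RF ι lam y ζ) {V : Type} [AddCommGroup V] [Module k V] [FiniteDimensional k V]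
    (ρ : Representation k (SpecialLinearGroup (Fin 2) F) V) {b : ℕ} (hb : b < 64) (h : IsV ι b ρ ⊤) :
    SpecM ι ρ lam y ζ (fun c => if c = b then 1 else 0) := by
  have h1 := spec_single R ρ ⊤ (fun _ _ _ => trivial) hb h
  have key : ∀ (g : SpecialLinearGroup (Fin 2) F) (μ : k),
      Module.finrank k (eig (subRep ρ ⊤ (fun _ _ _ => trivial)) g μ) = Module.finrank k (eig ρ g μ) := by
    intro g μ
    refine LinearEquiv.finrank_eq (LinearEquiv.ofBijective
      ({ toFun := fun x => ⟨((x : (⊤ : Submodule k V)) : V), ?_⟩, map_add' := fun x y => rfl,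
         map_smul' := fun c x => rfl } :
        eig (subRep ρ ⊤ (fun _ _ _ => trivial)) g μ →ₗ[k] eig ρ g μ) ⟨?_, ?_⟩)
    · have h2 := (mem_eig _).1 x.2
      rw [mem_eig]
      exact congrArg Subtype.val h2
    · intro x z e
      have e' : ((x : (⊤ : Submodule k V)) : V) = ((z : (⊤ : Submodule k V)) : V) :=
        congrArg (fun w : eig ρ g μ => (w : V)) e
      exact Subtype.ext (Subtype.ext e')
    · rintro ⟨x, hx⟩
      refine ⟨⟨⟨x, trivial⟩, ?_⟩, rfl⟩
      rw [mem_eig] at hx ⊢
      exact Subtype.ext hx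
  refine ⟨fun j hj => ?_, fun j hj => ?_⟩
  · rw [← h1.1 j hj]
    exact (key _ _).symm
  · rw [← h1.2 j hj]
    exact (key _ _).symm

/-- **composition multiplicities** -/
theorem spec_poly [CharP F 2] (D : Dat ι lam y ζ) (R : RF ι lam y ζ) (hy : y ^ 65 = 1) (p : Polynomial k) :
    ∀ (n : ℕ) {V : Type} [AddCommGroup V] [Module k V] [FiniteDimensional k V]
    (ρ : Representation k (SpecialLinearGroup (Fin 2) F) V), Module.finrank k V = n →
    (∀ v, Polynomial.aeval (eps ρ) p v = 0) →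
    ∃ m : ℕ → ℕ, SpecM ι ρ lam y ζ m ∧ ∀ b < 64, m b ≠ 0 → p.eval (if b = 63 then 1 else 0) = 0 := by
  intro n
  induction n using Nat.strong_induction_on with
  | _ n ih =>
    intro V _ _ _ ρ hn hp
    rcases subsingleton_or_nontrivial V with hV | hV
    · refine ⟨fun _ => 0, ⟨fun j _ => ?_, fun j _ => ?_⟩, fun b _ h => absurd rfl h⟩
      · simp only [zero_mul, Finset.sum_const_zero]
        exact Module.finrank_zero_of_subsingleton
      · simp only [zero_mul, Finset.sum_const_zero]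
        exact Module.finrank_zero_of_subsingleton
    · obtain ⟨W, hW, h0, hmin⟩ := exists_irr_sub ρ
      obtain ⟨b, hb, hV⟩ := R.r1 _ (irr_subRep ρ W hW h0 hmin)
      have hV' : IsV ι b ρ W := IsV_sub ρ W hW hV
      have hlt : Module.finrank k (V ⧸ W) < n := by
        have h1 := Submodule.finrank_quotient_add_finrank W
        have h2 : 0 < Module.finrank k W := by
          have : Nontrivial W := Submodule.nontrivial_iff_ne_bot.2 h0
          exact Module.finrank_pos
        omega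
      obtain ⟨m', hm', hp'⟩ := ih _ hlt (quotRep ρ W hW) rfl (by
        intro v
        obtain ⟨x, rfl⟩ := W.mkQ_surjective v
        rw [← aeval_intertw W.mkQ (eps ρ) (eps (quotRep ρ W hW)) (fun v => (eps_quot ρ W hW v).symm) p x, hp, map_zero])
      refine ⟨_, spec_add D hy ρ W hW (spec_single R ρ W hW hb hV') hm', fun c hc hne => ?_⟩
      by_cases hcb : c = b
      · subst hcb
        obtain ⟨x, hx, hx0⟩ := Submodule.exists_mem_ne_zero_of_ne_bot h0
        have h3 : eps ρ x = (if c = 63 then (1 : k) else 0) • x := by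
          rw [eps_IsV ι D.card ρ hb hV' hx]
          by_cases h63 : c = 63 <;> simp [h63]
        have h4 := hp x
        rw [aeval_eig (eps ρ) h3 p] at h4
        exact (smul_eq_zero.1 h4).resolve_right hx0
      · refine hp' c hc ?_
        have h5 : (if c = b then 1 else 0) + m' c ≠ 0 := hne
        rwa [if_neg hcb, zero_add] at h5

end Add

end Cfsg.Agent.H950.E8X
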