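import Cfsg.Agent.H950.E8X.EpsB

/-!
# S5915: the Steinberg block, part C (helper950)

`EPS` : the part `A` of an `SL₂(64)`-module without Steinberg factors.
-/

set_option autoImplicit false
set_option linter.unusedSectionVars false

namespace Cfsg.Agent.H950.E8X

open Matrix Cfsg.Agent.H943.SL2Rel Cfsg.Agent.H943.RepAdd Cfsg.Agent.H943.SL2Mod Cfsg.Agent.H939.L64

section YPow

variable {k : Type} [Field k] {F : Type} [Field F] [Fintype F] [DecidableEq F] {ι : F →+* k}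
  {lam : Fˣ} {y : SpecialLinearGroup (Fin 2) F} {ζ : k}

theorem y_pow (D : Dat ι lam y ζ) : y ^ 65 = 1 := by
  have hζ0 : ζ ≠ 0 := D.prim.ne_zero (by decide)
  have h65 : ζ ^ 65 = 1 := D.prim.pow_eq_one
  have hne : ζ - ζ⁻¹ ≠ 0 := by
    intro h0
    have h1 : ζ ^ 2 = 1 := by
      have h2 := sub_eq_zero.1 h0
      rw [pow_two]
      nth_rewrite 2 [h2]
      exact mul_inv_cancel₀ hζ0
    exact D.prim.pow_ne_one_of_pos_of_lt (by decide) (by decide) h1
  set M : Matrix (Fin 2) (Fin 2) k := y.1.map ι with hM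
  have hdet : M 0 0 * M 1 1 - M 0 1 * M 1 0 = 1 := by
    have h1 := y.2
    rw [Matrix.det_fin_two] at h1
    have h2 := congrArg ι h1
    rw [map_sub, map_mul, map_mul, map_one] at h2
    exact h2
  have htr : M 0 0 + M 1 1 = ζ + ζ⁻¹ := by
    rw [← D.tr, map_add]
    rfl
  have hCH : M * M = (ζ + ζ⁻¹) • M - 1 := by
    ext i j
    rw [Matrix.mul_apply, Fin.sum_univ_two, Matrix.sub_apply, Matrix.smul_apply, smul_eq_mul, ← htr]
    fin_cases i <;> fin_cases j
    · show M 0 0 * M 0 0 + M 0 1 * M 1 0 = (M 0 0 + M 1 1) * M 0 0 - (1 : Matrix (Fin 2) (Fin 2) k) 0 0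
      rw [Matrix.one_apply_eq]
      linear_combination -hdet
    · show M 0 0 * M 0 1 + M 0 1 * M 1 1 = (M 0 0 + M 1 1) * M 0 1 - (1 : Matrix (Fin 2) (Fin 2) k) 0 1
      rw [Matrix.one_apply_ne (by decide)]
      ring
    · show M 1 0 * M 0 0 + M 1 1 * M 1 0 = (M 0 0 + M 1 1) * M 1 0 - (1 : Matrix (Fin 2) (Fin 2) k) 1 0
      rw [Matrix.one_apply_ne (by decide)]
      ring
    · show M 1 0 * M 0 1 + M 1 1 * M 1 1 = (M 0 0 + M 1 1) * M 1 1 - (1 : Matrix (Fin 2) (Fin 2) k) 1 1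
      rw [Matrix.one_apply_eq]
      linear_combination -hdet
  have key : ∀ n : ℕ, (ζ - ζ⁻¹) • M ^ (n + 1) = (ζ ^ (n + 1) - ζ⁻¹ ^ (n + 1)) • M - (ζ ^ n - ζ⁻¹ ^ n) • 1 := by
    intro n
    induction n with
    | zero => simp
    | succ n ih =>
      rw [pow_succ M (n + 1), ← smul_mul_assoc, ih, sub_mul, smul_mul_assoc, hCH, smul_mul_assoc, one_mul, smul_sub,
        smul_smul]
      have e1 : (ζ ^ (n + 1) - ζ⁻¹ ^ (n + 1)) * (ζ + ζ⁻¹) = (ζ ^ (n + 1 + 1) - ζ⁻¹ ^ (n + 1 + 1)) +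
          (ζ ^ n - ζ⁻¹ ^ n) := by
        have e2 : ζ * ζ⁻¹ = 1 := mul_inv_cancel₀ hζ0
        rw [pow_succ ζ (n + 1), pow_succ ζ⁻¹ (n + 1), pow_succ ζ n, pow_succ ζ⁻¹ n]
        linear_combination (ζ ^ n - ζ⁻¹ ^ n) * e2
      rw [e1, add_smul]
      abel
  have h1 := key 64
  have e3 : ζ⁻¹ ^ (64 + 1) = 1 := by rw [inv_pow, h65, inv_one]
  have e4 : ζ ^ 64 = ζ⁻¹ := by
    refine eq_inv_of_mul_eq_one_left ?_
    rw [← pow_succ]
    exact h65
  have e5 : ζ⁻¹ ^ 64 = ζ := by rw [inv_pow, e4, inv_inv]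
  rw [e3, h65, sub_self, zero_smul, e4, e5, zero_sub, ← neg_smul, neg_sub] at h1
  have h2 : M ^ 65 = 1 := by
    have h3 := congrArg (fun X => (ζ - ζ⁻¹)⁻¹ • X) h1
    simp only [smul_smul, inv_mul_cancel₀ hne, one_smul] at h3
    exact h3
  refine Subtype.ext ?_
  have h4 : (y ^ 65).1.map ι = M ^ 65 := by
    rw [hM]
    have h5 := map_pow (RingHom.mapMatrix ι) y.1 65
    exact h5
  have h6 : Function.Injective (fun X : Matrix (Fin 2) (Fin 2) F => X.map ι) :=
    Matrix.map_injective ι.injective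
  apply h6
  show (y ^ 65).1.map ι = (1 : Matrix (Fin 2) (Fin 2) F).map ι
  rw [h4, h2, Matrix.map_one _ (map_zero ι) (map_one ι)]

end YPow

/-! ### bilinear maps -/

/-- bilinear maps from a module with small factors to a module with large submodules vanish -/
theorem bil_zero {k G V M : Type*} [Field k] [Group G] [AddCommGroup V] [Module k V] [AddCommGroup M] [Module k M]
    [FiniteDimensional k V] [FiniteDimensional k M] (ρ : Representation k G V) (ρ' : Representation k G M)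
    (β : V →ₗ[k] V →ₗ[k] M) (hβ : ∀ g v w, ρ' g (β v w) = β (ρ g v) (ρ g w))
    (hM : ∀ W : Submodule k M, (∀ g, ∀ x ∈ W, ρ' g x ∈ W) → W ≠ ⊥ → 16 < Module.finrank k W)
    (A : Submodule k V)
    (hA : ∀ U ≤ A, (∀ g, ∀ x ∈ U, ρ g x ∈ U) → U ≠ ⊥ → ∃ U' : Submodule k V, U' < U ∧ (∀ g, ∀ x ∈ U', ρ g x ∈ U') ∧
      Module.finrank k U ≤ Module.finrank k U' + 4) :
    ∀ (n : ℕ) (U₁ U₂ : Submodule k V), U₁ ≤ A → U₂ ≤ A → (∀ g, ∀ x ∈ U₁, ρ g x ∈ U₁) → (∀ g, ∀ x ∈ U₂, ρ g x ∈ U₂) →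
      Module.finrank k U₁ + Module.finrank k U₂ = n → ∀ v ∈ U₁, ∀ w ∈ U₂, β v w = 0 := by
  intro n
  induction n using Nat.strong_induction_on with
  | _ n ih =>
    intro U₁ U₂ h1 h2 i1 i2 hn
    by_cases z1 : U₁ = ⊥
    · intro v hv w _
      rw [z1, Submodule.mem_bot] at hv
      rw [hv, map_zero, LinearMap.zero_apply]
    by_cases z2 : U₂ = ⊥
    · intro v _ w hw
      rw [z2, Submodule.mem_bot] at hw
      rw [hw, map_zero]
    obtain ⟨U₁', l1, j1, d1⟩ := hA U₁ h1 i1 z1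
    obtain ⟨U₂', l2, j2, d2⟩ := hA U₂ h2 i2 z2
    have f1 := Submodule.finrank_lt_finrank_of_lt l1
    have f2 := Submodule.finrank_lt_finrank_of_lt l2
    have k1 := ih _ (by omega) U₁' U₂ (l1.le.trans h1) h2 j1 i2 rfl
    have k2 := ih _ (by omega) U₁ U₂' h1 (l2.le.trans h2) i1 j2 rfl
    -- complements
    have hc : ∀ (U U' : Submodule k V), U' < U → Module.finrank k U ≤ Module.finrank k U' + 4 →
        ∃ C : Submodule k V, C ≤ U ∧ U ≤ U' ⊔ C ∧ Module.finrank k C ≤ 4 := by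
      intro U U' hl hd
      obtain ⟨C, hC⟩ := Submodule.exists_isCompl (U'.comap U.subtype)
      have g1 : Module.finrank k (U'.comap U.subtype) = Module.finrank k U' :=
        LinearEquiv.finrank_eq (Submodule.comapSubtypeEquivOfLe hl.le)
      have g2 := Submodule.finrank_add_eq_of_isCompl hC
      have g3 : Module.finrank k (C.map U.subtype) = Module.finrank k C :=
        Submodule.finrank_map_subtype_eq U C
      refine ⟨C.map U.subtype, Submodule.map_subtype_le U C, ?_, by omega⟩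
      intro x hx
      have g4 : (⟨x, hx⟩ : U) ∈ U'.comap U.subtype ⊔ C := by rw [hC.sup_eq_top]; trivial
      obtain ⟨a, ha, b, hb, e⟩ := Submodule.mem_sup.1 g4
      exact Submodule.mem_sup.2 ⟨a, ha, b, ⟨b, hb, rfl⟩, congrArg Subtype.val e⟩
    obtain ⟨C₁, c1, s1, e1⟩ := hc U₁ U₁' l1 d1
    obtain ⟨C₂, c2, s2, e2⟩ := hc U₂ U₂' l2 d2
    set P : Submodule k M := Submodule.map₂ β U₁ U₂ with hP
    have hPinv : ∀ g, ∀ x ∈ P, ρ' g x ∈ P := by
      intro g
      have h3 : P ≤ P.comap (ρ' g) := Submodule.map₂_le.2 fun v hv w hw => by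
        rw [Submodule.mem_comap, hβ]
        exact Submodule.apply_mem_map₂ _ (i1 g v hv) (i2 g w hw)
      exact fun x hx => h3 hx
    have hPC : P ≤ Submodule.map₂ β C₁ C₂ := by
      refine Submodule.map₂_le.2 fun v hv w hw => ?_
      obtain ⟨a, ha, b, hb, rfl⟩ := Submodule.mem_sup.1 (s1 hv)
      obtain ⟨a', ha', b', hb', rfl⟩ := Submodule.mem_sup.1 (s2 hw)
      rw [LinearMap.map_add₂, k1 a ha _ hw, zero_add, map_add, k2 b (c1 hb) a' ha', zero_add]
      exact Submodule.apply_mem_map₂ _ hb hb'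
    have hdim : Module.finrank k (Submodule.map₂ β C₁ C₂) ≤ 16 := by
      let b1 := Module.finBasis k C₁
      let b2 := Module.finBasis k C₂
      have h3 : Submodule.map₂ β C₁ C₂ ≤ Submodule.span k (Set.range fun p : Fin (Module.finrank k C₁) ×
          Fin (Module.finrank k C₂) => β (b1 p.1 : V) (b2 p.2 : V)) := by
        refine Submodule.map₂_le.2 fun v hv w hw => ?_
        have r1 := congrArg Subtype.val (b1.sum_repr ⟨v, hv⟩)
        have r2 := congrArg Subtype.val (b2.sum_repr ⟨w, hw⟩)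
        rw [← show ((⟨v, hv⟩ : C₁) : V) = v from rfl, ← r1, ← show ((⟨w, hw⟩ : C₂) : V) = w from rfl, ← r2]
        rw [AddSubmonoidClass.coe_finset_sum, AddSubmonoidClass.coe_finset_sum, LinearMap.map_sum₂]
        refine sum_mem fun i _ => ?_
        rw [map_sum]
        refine sum_mem fun j _ => ?_
        rw [Submodule.coe_smul, Submodule.coe_smul, LinearMap.map_smul₂, map_smul]
        exact Submodule.smul_mem _ _ (Submodule.smul_mem _ _ (Submodule.subset_span ⟨(i, j), rfl⟩))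
      refine (Submodule.finrank_mono h3).trans ((finrank_range_le_card _).trans ?_)
      rw [Fintype.card_prod, Fintype.card_fin, Fintype.card_fin]
      calc Module.finrank k C₁ * Module.finrank k C₂ ≤ 4 * 4 := Nat.mul_le_mul e1 e2
        _ = 16 := rfl
    have hP0 : P = ⊥ := by
      by_contra h0
      have h3 := hM P hPinv h0
      have h4 := Submodule.finrank_mono hPC
      omega
    intro v hv w hw
    have h5 : β v w ∈ P := Submodule.apply_mem_map₂ _ hv hw
    rw [hP0] at h5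
    exact (Submodule.mem_bot k).1 h5

end Cfsg.Agent.H950.E8X
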