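import Mathlib
import Cfsg.Prelude.Def_Local
import Cfsg.Agent.ClassicalGeometry.AutPSL.Main
import Cfsg.Agent.ClassicalGeometry.PSL2Basic
import Cfsg.Agent.ClassicalGeometry.PSL2Solvable
import Cfsg.Agent.Lib.GenFitting
import Cfsg.Agent.H434.E8L.Aut81

/-!
# S5915: G1 (helper950): the centraliser of an element of order 65 in a group with generalized Fitting subgroup `L₂(64)`
-/

set_option autoImplicit false
set_option linter.unusedSectionVars false

namespace Cfsg.Agent.H950.E8X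

open Matrix Cfsg.Agent.H434.E8L
open Cfsg.Agent.ClassicalGeometry.AutPSL.Auto Cfsg.Agent.ClassicalGeometry.AutPSL.Main
open Cfsg.Agent.ClassicalGeometry.AutPSL.Root

section Fld

variable {F : Type*} [Field F] [Fintype F]

theorem charP_two (hF : Fintype.card F = 64) : CharP F 2 := by
  obtain ⟨⟨m, hm⟩, hp', hc⟩ := FiniteField.card F (ringChar F)
  rw [hF] at hc
  have h1 : ringChar F ∣ 2 ^ 6 := by
    rw [show (2 : ℕ) ^ 6 = 64 by norm_num, hc]
    exact dvd_pow_self _ (by simpa using hm.ne')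
  have h2 := (Nat.prime_dvd_prime_iff_eq hp' Nat.prime_two).1 (hp'.dvd_of_dvd_pow h1)
  exact h2 ▸ ringChar.charP F

/-- an element of order 65 of `SL₂(64)` has the eigenvalues `ζ`, `ζ⁻¹`, `ζ` of order 65 -/
theorem exists_zeta (hF : Fintype.card F = 64) {Y : SpecialLinearGroup (Fin 2) F} (hY : orderOf Y = 65) :
    ∃ ζ : AlgebraicClosure F, IsPrimitiveRoot ζ 65 ∧
      algebraMap F (AlgebraicClosure F) (Y.1 0 0 + Y.1 1 1) = ζ + ζ⁻¹ := by
  haveI := charP_two hF
  haveI : CharP (AlgebraicClosure F) 2 := charP_of_injective_algebraMap (algebraMap F (AlgebraicClosure F)).injective 2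
  set K := AlgebraicClosure F with hK
  set ι := algebraMap F K with hι
  set t : K := ι (Y.1 0 0 + Y.1 1 1) with ht
  -- a root
  obtain ⟨ζ, hζ⟩ := IsAlgClosed.exists_root (Polynomial.X ^ 2 + Polynomial.C t * Polynomial.X + 1 : Polynomial K) (by
    have : (Polynomial.X ^ 2 + Polynomial.C t * Polynomial.X + 1 : Polynomial K).degree = 2 := by
      compute_degree!
    rw [this]
    decide)
  have hroot : ζ ^ 2 + t * ζ + 1 = 0 := by
    have := hζ
    simp only [Polynomial.IsRoot, Polynomial.eval_add, Polynomial.eval_pow, Polynomial.eval_X, Polynomial.eval_mul,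
      Polynomial.eval_C, Polynomial.eval_one] at this
    exact this
  have hζ0 : ζ ≠ 0 := by
    rintro rfl
    simp at hroot
  have htz : t = ζ + ζ⁻¹ := by
    have h1 : t * ζ = (ζ + ζ⁻¹) * ζ := by
      rw [add_mul, inv_mul_cancel₀ hζ0]
      have h2 : t * ζ = -(ζ ^ 2 + 1) := by linear_combination hroot
      rw [h2, CharTwo.neg_eq]
      ring
    exact mul_right_cancel₀ hζ0 h1
  set M : Matrix (Fin 2) (Fin 2) K := Y.1.map ι with hM
  have hdet : M 0 0 * M 1 1 - M 0 1 * M 1 0 = 1 := by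
    have h1 := Y.2
    rw [Matrix.det_fin_two] at h1
    have h2 := congrArg ι h1
    rw [map_sub, map_mul, map_mul, map_one] at h2
    exact h2
  have htr : M 0 0 + M 1 1 = ζ + ζ⁻¹ := by
    rw [← htz, ht, map_add]
    rfl
  have hCH : M * M = (ζ + ζ⁻¹) • M - 1 := by
    ext i j
    rw [Matrix.mul_apply, Fin.sum_univ_two, Matrix.sub_apply, Matrix.smul_apply, smul_eq_mul, ← htr]
    fin_cases i <;> fin_cases j
    · show M 0 0 * M 0 0 + M 0 1 * M 1 0 = (M 0 0 + M 1 1) * M 0 0 - (1 : Matrix (Fin 2) (Fin 2) K) 0 0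
      rw [Matrix.one_apply_eq]
      linear_combination -hdet
    · show M 0 0 * M 0 1 + M 0 1 * M 1 1 = (M 0 0 + M 1 1) * M 0 1 - (1 : Matrix (Fin 2) (Fin 2) K) 0 1
      rw [Matrix.one_apply_ne (by decide)]
      ring
    · show M 1 0 * M 0 0 + M 1 1 * M 1 0 = (M 0 0 + M 1 1) * M 1 0 - (1 : Matrix (Fin 2) (Fin 2) K) 1 0
      rw [Matrix.one_apply_ne (by decide)]
      ring
    · show M 1 0 * M 0 1 + M 1 1 * M 1 1 = (M 0 0 + M 1 1) * M 1 1 - (1 : Matrix (Fin 2) (Fin 2) K) 1 1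
      rw [Matrix.one_apply_eq]
      linear_combination -hdet
  have key : ∀ n : ℕ, (ζ - ζ⁻¹) • M ^ (n + 1) = (ζ ^ (n + 1) - ζ⁻¹ ^ (n + 1)) • M - (ζ ^ n - ζ⁻¹ ^ n) • 1 := by
    intro n
    induction n with
    | zero => simp
    | succ n ih =>
      rw [pow_succ M (n + 1), ← smul_mul_assoc, ih, sub_mul, smul_mul_assoc, hCH, smul_mul_assoc, one_mul, smul_sub,
        smul_smul]
      have e1 : (ζ ^ (n + 1) - ζ⁻¹ ^ (n + 1)) * (ζ + ζ⁻¹) = (ζ ^ (n + 1 + 1) - ζ⁻¹ ^ (n + 1 + 1)) +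
          (ζ ^ n - ζ⁻¹ ^ n) := by
        have e2 : ζ * ζ⁻¹ = 1 := mul_inv_cancel₀ hζ0
        rw [pow_succ ζ (n + 1), pow_succ ζ⁻¹ (n + 1), pow_succ ζ n, pow_succ ζ⁻¹ n]
        linear_combination (ζ ^ n - ζ⁻¹ ^ n) * e2
      rw [e1, add_smul]
      abel
  have hinj : Function.Injective (fun X : Matrix (Fin 2) (Fin 2) F => X.map ι) := Matrix.map_injective ι.injective
  have hpow : ∀ n, (Y ^ n).1.map ι = M ^ n := by
    intro n
    have h5 := map_pow (RingHom.mapMatrix ι) Y.1 n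
    exact h5
  have hYn : ∀ n, Y ^ n = 1 ↔ M ^ n = 1 := by
    intro n
    rw [← hpow]
    constructor
    · intro h
      rw [h]
      exact Matrix.map_one _ (map_zero ι) (map_one ι)
    · intro h
      refine Subtype.ext (hinj ?_)
      show (Y ^ n).1.map ι = (1 : Matrix (Fin 2) (Fin 2) F).map ι
      rw [h, Matrix.map_one _ (map_zero ι) (map_one ι)]
  -- `ζ ≠ ζ⁻¹`
  have hne : ζ - ζ⁻¹ ≠ 0 := by
    intro h0
    have h1 : ζ + ζ⁻¹ = 0 := by rw [← h0, CharTwo.sub_eq_add]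
    have h2 : Y ^ 2 = 1 := by
      rw [hYn, pow_two, hCH, h1, zero_smul, zero_sub, ← one_smul K (1 : Matrix (Fin 2) (Fin 2) K), ← neg_smul,
        CharTwo.neg_eq]
    have h3 := orderOf_dvd_of_pow_eq_one h2
    rw [hY] at h3
    omega
  -- `ζ ^ 65 = 1`
  have hsing : (M - ζ • (1 : Matrix (Fin 2) (Fin 2) K)).det = 0 := by
    rw [Matrix.det_fin_two]
    simp only [Matrix.sub_apply, Matrix.smul_apply, smul_eq_mul, Matrix.one_apply_eq, mul_one,
      Matrix.one_apply_ne (show (0 : Fin 2) ≠ 1 by decide), Matrix.one_apply_ne (show (1 : Fin 2) ≠ 0 by decide),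
      mul_zero, sub_zero]
    have e2 : ζ * ζ⁻¹ = 1 := mul_inv_cancel₀ hζ0
    linear_combination hdet - ζ * htr - e2
  obtain ⟨v, hv0, hv⟩ := (Matrix.exists_mulVec_eq_zero_iff).2 hsing
  have hMv : M *ᵥ v = ζ • v := by
    rw [Matrix.sub_mulVec, Matrix.smul_mulVec, Matrix.one_mulVec, sub_eq_zero] at hv
    exact hv
  have hMn : ∀ n : ℕ, M ^ n *ᵥ v = ζ ^ n • v := by
    intro n
    induction n with
    | zero => rw [pow_zero, pow_zero, one_smul, Matrix.one_mulVec]
    | succ n ih => rw [pow_succ', ← Matrix.mulVec_mulVec, ih, Matrix.mulVec_smul, hMv, smul_smul, pow_succ]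
  have h65 : ζ ^ 65 = 1 := by
    have h1 := hMn 65
    rw [(hYn 65).1 (by rw [← hY]; exact pow_orderOf_eq_one Y), Matrix.one_mulVec] at h1
    have h2 : (ζ ^ 65 - 1) • v = 0 := by rw [sub_smul, one_smul, ← h1, sub_self]
    exact sub_eq_zero.1 ((smul_eq_zero.1 h2).resolve_right hv0)
  refine ⟨ζ, ⟨h65, fun l hl => ?_⟩, htz⟩
  rcases Nat.eq_zero_or_pos l with rfl | hl0
  · exact dvd_zero _
  obtain ⟨n, rfl⟩ := Nat.exists_eq_succ_of_ne_zero hl0.ne'
  have h1 := key n
  have h3 : ζ⁻¹ ^ (n + 1) = 1 := by rw [inv_pow, hl, inv_one]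
  have h4 : ζ ^ n = ζ⁻¹ := by
    refine eq_inv_of_mul_eq_one_left ?_
    rw [← pow_succ]
    exact hl
  have h5 : ζ⁻¹ ^ n = ζ := by rw [inv_pow, h4, inv_inv]
  rw [h3, show ζ ^ (n + 1) = 1 from hl, sub_self, zero_smul, h4, h5, zero_sub, ← neg_smul, neg_sub] at h1
  have h2 : M ^ (n + 1) = 1 := by
    have h6 := congrArg (fun X => (ζ - ζ⁻¹)⁻¹ • X) h1
    simp only [smul_smul, inv_mul_cancel₀ hne, one_smul] at h6
    exact h6
  rw [← hY]
  exact orderOf_dvd_of_pow_eq_one ((hYn _).2 h2)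

/-- powers of `2` -/
theorem aut_pow64 (hF : Fintype.card F = 64) (σ : F ≃+* F) : ∃ i < 6, ∀ x, σ x = x ^ 2 ^ i := by
  have := charP_two hF
  have h3 : Fact (Nat.Prime 2) := ⟨Nat.prime_two⟩
  let _ : Algebra (ZMod 2) F := ZMod.algebra F 2
  let σ' : F →ₐ[ZMod 2] F :=
    { (σ : F →+* F) with
      commutes' := fun a => RingHom.congr_fun
        (Subsingleton.elim ((σ : F →+* F).comp (algebraMap (ZMod 2) F)) (algebraMap (ZMod 2) F)) a }
  obtain ⟨n, hn⟩ := (FiniteField.bijective_frobeniusAlgHom_pow (ZMod 2) F).2 σ'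
  have hfr : Module.finrank (ZMod 2) F = 6 := by
    have h1 := Module.card_eq_pow_finrank (K := ZMod 2) (V := F)
    rw [hF, ZMod.card] at h1
    have : (2 : ℕ) ^ 6 = 2 ^ Module.finrank (ZMod 2) F := by rw [← h1]; norm_num
    exact (Nat.pow_right_injective le_rfl this).symm
  refine ⟨n, by have := n.2; omega, fun x => ?_⟩
  have h5 : σ x = σ' x := rfl
  rw [h5, ← hn]
  have h6 : ∀ (m : ℕ) (x : F), ((FiniteField.frobeniusAlgHom (ZMod 2) F) ^ m) x = x ^ 2 ^ m := by
    intro m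
    induction m with
    | zero => intro x; simp
    | succ m ih =>
      intro x
      rw [pow_succ, AlgHom.mul_apply, ih, FiniteField.frobeniusAlgHom_apply, ZMod.card, ← pow_mul, pow_succ']
  exact h6 n x

/-- a field automorphism fixing the trace is trivial -/
theorem aut_trivial (hF : Fintype.card F = 64) {Y : SpecialLinearGroup (Fin 2) F} (hY : orderOf Y = 65) (σ : F ≃+* F)
    (hσ : σ (Y.1 0 0 + Y.1 1 1) = Y.1 0 0 + Y.1 1 1) : σ = RingEquiv.refl F := by
  haveI := charP_two hF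
  haveI : CharP (AlgebraicClosure F) 2 := charP_of_injective_algebraMap (algebraMap F (AlgebraicClosure F)).injective 2
  obtain ⟨i, hi6, hi⟩ := aut_pow64 hF σ
  obtain ⟨ζ, hζ, ht⟩ := exists_zeta hF hY
  have hζ0 : ζ ≠ 0 := hζ.ne_zero (by decide)
  rcases Nat.eq_zero_or_pos i with rfl | hi0
  · apply RingEquiv.ext
    intro x
    rw [hi, pow_zero, pow_one]
    rfl
  exfalso
  rw [hi] at hσ
  have h1 := congrArg (algebraMap F (AlgebraicClosure F)) hσ
  rw [map_pow, ht, add_pow_char_pow] at h1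
  have h2 : (ζ ^ 2 ^ i - ζ) * (ζ ^ 2 ^ i - ζ⁻¹) = 0 := by
    have h3 : ζ ^ 2 ^ i * ζ⁻¹ ^ 2 ^ i = 1 := by rw [← mul_pow, mul_inv_cancel₀ hζ0, one_pow]
    have e2 : ζ * ζ⁻¹ = 1 := mul_inv_cancel₀ hζ0
    linear_combination (ζ ^ 2 ^ i) * h1 - h3 + e2
  have h5 : ∀ n : ℕ, ζ ^ n = 1 → 65 ∣ n := hζ.2
  rcases mul_eq_zero.1 h2 with h3 | h3
  · have h4 : ζ ^ (2 ^ i - 1) = 1 := by
      have h6 : ζ ^ (2 ^ i - 1) * ζ = 1 * ζ := by
        rw [← pow_succ, Nat.sub_add_cancel Nat.one_le_two_pow, one_mul]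
        exact sub_eq_zero.1 h3
      exact mul_right_cancel₀ hζ0 h6
    have h7 := h5 _ h4
    revert h7
    interval_cases i <;> decide
  · have h4 : ζ ^ (2 ^ i + 1) = 1 := by
      rw [pow_succ, sub_eq_zero.1 h3, inv_mul_cancel₀ hζ0]
    have h7 := h5 _ h4
    revert h7
    interval_cases i <;> decide

/-- the centraliser of `Y` in `SL₂(64)` -/
theorem cent65 (hF : Fintype.card F = 64) {Y D : SpecialLinearGroup (Fin 2) F} (hY : orderOf Y = 65)
    (hD : D * Y = Y * D) : ∃ i : ℕ, D = Y ^ i := by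
  haveI := charP_two hF
  haveI : CharP (AlgebraicClosure F) 2 := charP_of_injective_algebraMap (algebraMap F (AlgebraicClosure F)).injective 2
  obtain ⟨ζ, hζ, ht⟩ := exists_zeta hF hY
  set ι := algebraMap F (AlgebraicClosure F) with hι
  have hζ0 : ζ ≠ 0 := hζ.ne_zero (by decide)
  have hzinv : ζ * ζ⁻¹ = 1 := mul_inv_cancel₀ hζ0
  have hq : ∀ a : F, a ^ 64 = a := fun a => by rw [← hF]; exact FiniteField.pow_card a
  -- `ζ` is not in `F`
  have hnF : ∀ a : F, ι a ≠ ζ := by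
    intro a ha
    have h1 : ζ ^ 64 = ζ := by rw [← ha, ← map_pow, hq]
    have h2 : ζ ^ 63 = 1 := by
      have h3 : ζ ^ 63 * ζ = 1 * ζ := by rw [← pow_succ, one_mul]; exact h1
      exact mul_right_cancel₀ hζ0 h3
    have := hζ.2 63 h2
    omega
  have hdet : Y.1 0 0 * Y.1 1 1 - Y.1 0 1 * Y.1 1 0 = 1 := by
    have h1 := Y.2
    rwa [Matrix.det_fin_two] at h1
  -- `Y 1 0 ≠ 0`
  have hY10 : Y.1 1 0 ≠ 0 := by
    intro h0
    rw [h0, mul_zero, sub_zero] at hdet
    have h1 : (ι (Y.1 0 0) - ζ) * (ι (Y.1 1 1) - ζ) = 0 := by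
      have h2 := congrArg ι hdet
      rw [map_mul, map_one] at h2
      rw [map_add] at ht
      linear_combination h2 - ζ * ht - hzinv
    rcases mul_eq_zero.1 h1 with h2 | h2
    · exact hnF _ (sub_eq_zero.1 h2)
    · exact hnF _ (sub_eq_zero.1 h2)
  -- elements commuting with `Y`
  have hlin : ∀ X : SpecialLinearGroup (Fin 2) F, X * Y = Y * X → ∃ a b : F, X.1 = a • 1 + b • Y.1 := by
    intro X hX
    have hm : X.1 * Y.1 = Y.1 * X.1 := congrArg Subtype.val hX
    have e00 := congrFun (congrFun hm 0) 0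
    have e10 := congrFun (congrFun hm 1) 0
    rw [Matrix.mul_apply, Matrix.mul_apply, Fin.sum_univ_two, Fin.sum_univ_two] at e00 e10
    refine ⟨X.1 0 0 - X.1 1 0 * (Y.1 1 0)⁻¹ * Y.1 0 0, X.1 1 0 * (Y.1 1 0)⁻¹, ?_⟩
    ext i j
    rw [Matrix.add_apply, Matrix.smul_apply, Matrix.smul_apply, smul_eq_mul, smul_eq_mul]
    fin_cases i <;> fin_cases j
    · show X.1 0 0 = _ * (1 : Matrix (Fin 2) (Fin 2) F) 0 0 + _ * Y.1 0 0
      rw [Matrix.one_apply_eq]
      ring
    · show X.1 0 1 = _ * (1 : Matrix (Fin 2) (Fin 2) F) 0 1 + _ * Y.1 0 1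
      have h3 : X.1 0 1 * Y.1 1 0 = X.1 1 0 * Y.1 0 1 := by linear_combination e00
      rw [Matrix.one_apply_ne (by decide), mul_zero, zero_add, mul_right_comm, ← h3, mul_assoc, mul_inv_cancel₀ hY10,
        mul_one]
    · show X.1 1 0 = _ * (1 : Matrix (Fin 2) (Fin 2) F) 1 0 + _ * Y.1 1 0
      rw [Matrix.one_apply_ne (by decide), mul_zero, zero_add, mul_assoc, inv_mul_cancel₀ hY10, mul_one]
    · show X.1 1 1 = _ * (1 : Matrix (Fin 2) (Fin 2) F) 1 1 + _ * Y.1 1 1
      rw [Matrix.one_apply_eq, mul_one]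
      have h3 : (X.1 1 1 - X.1 0 0) * Y.1 1 0 = X.1 1 0 * (Y.1 1 1 - Y.1 0 0) := by linear_combination e10
      have h4 : X.1 1 1 - X.1 0 0 = X.1 1 0 * (Y.1 1 0)⁻¹ * (Y.1 1 1 - Y.1 0 0) := by
        rw [mul_assoc, mul_comm (Y.1 1 0)⁻¹, ← mul_assoc, ← h3, mul_assoc, mul_inv_cancel₀ hY10, mul_one]
      linear_combination h4
  -- the eigenvalue
  have hnorm : ∀ (X : SpecialLinearGroup (Fin 2) F) (a b : F), X.1 = a • 1 + b • Y.1 →
      (ι a + ι b * ζ) ^ 65 = 1 := by
    intro X a b hX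
    have h1 := X.2
    rw [hX, Matrix.det_fin_two] at h1
    simp only [Matrix.add_apply, Matrix.smul_apply, smul_eq_mul, Matrix.one_apply_eq, mul_one,
      Matrix.one_apply_ne (show (0 : Fin 2) ≠ 1 by decide), Matrix.one_apply_ne (show (1 : Fin 2) ≠ 0 by decide),
      mul_zero, zero_add] at h1
    have h2 : a ^ 2 + a * b * (Y.1 0 0 + Y.1 1 1) + b ^ 2 = 1 := by
      linear_combination h1 - b ^ 2 * hdet
    have h3 := congrArg ι h2
    rw [map_add, map_add, map_mul, map_mul, map_pow, map_pow, map_one, ht] at h3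
    have h64 : ζ ^ 64 = ζ⁻¹ := by
      refine eq_inv_of_mul_eq_one_left ?_
      rw [← pow_succ]
      exact hζ.pow_eq_one
    have h4 : (ι a + ι b * ζ) ^ 64 = ι a + ι b * ζ⁻¹ := by
      have h5 : (64 : ℕ) = 2 ^ 6 := by norm_num
      rw [h5, add_pow_char_pow, mul_pow, ← h5, ← map_pow, ← map_pow, hq, hq, h64]
    rw [pow_succ, h4]
    linear_combination h3 + (ι b ^ 2) * hzinv
  -- powers of `Y`
  obtain ⟨a, b, hab⟩ := hlin D hD
  have hξ := hnorm D a b hab
  obtain ⟨i, -, hi⟩ := hζ.eq_pow_of_pow_eq_one hξ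
  have hpw : ∀ n : ℕ, ∃ c d : F, (Y ^ n).1 = c • 1 + d • Y.1 ∧ ι c + ι d * ζ = ζ ^ n := by
    intro n
    induction n with
    | zero => exact ⟨1, 0, by rw [pow_zero, one_smul, zero_smul, add_zero]; rfl, by simp⟩
    | succ n ih =>
      obtain ⟨c, d, h1, h2⟩ := ih
      have hCH : Y.1 * Y.1 = (Y.1 0 0 + Y.1 1 1) • Y.1 - (1 : Matrix (Fin 2) (Fin 2) F) := by
        ext i j
        rw [Matrix.mul_apply, Fin.sum_univ_two, Matrix.sub_apply, Matrix.smul_apply, smul_eq_mul]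
        fin_cases i <;> fin_cases j
        · show Y.1 0 0 * Y.1 0 0 + Y.1 0 1 * Y.1 1 0 = (Y.1 0 0 + Y.1 1 1) * Y.1 0 0 - (1 : Matrix (Fin 2) (Fin 2) F) 0 0
          rw [Matrix.one_apply_eq]
          linear_combination -hdet
        · show Y.1 0 0 * Y.1 0 1 + Y.1 0 1 * Y.1 1 1 = (Y.1 0 0 + Y.1 1 1) * Y.1 0 1 - (1 : Matrix (Fin 2) (Fin 2) F) 0 1
          rw [Matrix.one_apply_ne (by decide)]
          ring
        · show Y.1 1 0 * Y.1 0 0 + Y.1 1 1 * Y.1 1 0 = (Y.1 0 0 + Y.1 1 1) * Y.1 1 0 - (1 : Matrix (Fin 2) (Fin 2) F) 1 0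
          rw [Matrix.one_apply_ne (by decide)]
          ring
        · show Y.1 1 0 * Y.1 0 1 + Y.1 1 1 * Y.1 1 1 = (Y.1 0 0 + Y.1 1 1) * Y.1 1 1 - (1 : Matrix (Fin 2) (Fin 2) F) 1 1
          rw [Matrix.one_apply_eq]
          linear_combination -hdet
      refine ⟨-d, c + d * (Y.1 0 0 + Y.1 1 1), ?_, ?_⟩
      · rw [pow_succ]
        show (Y ^ n).1 * Y.1 = _
        rw [h1, add_mul, smul_mul_assoc, one_mul, smul_mul_assoc, hCH, smul_sub, smul_smul, neg_smul, add_smul]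
        abel
      · rw [pow_succ, ← h2, map_neg, map_add, map_mul, ht]
        linear_combination (ι d) * hzinv
  obtain ⟨c, d, h1, h2⟩ := hpw i
  refine ⟨i, Subtype.ext ?_⟩
  have h3 : ι (a - c) = ι (d - b) * ζ := by
    rw [map_sub, map_sub]
    linear_combination -h2 - hi
  have h4 : d - b = 0 := by
    by_contra h0
    apply hnF ((a - c) * (d - b)⁻¹)
    rw [map_mul, h3, map_inv₀, mul_right_comm, mul_inv_cancel₀ ((map_ne_zero ι).2 h0), one_mul]
  rw [h4, map_zero, zero_mul, map_eq_zero] at h3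
  rw [hab, h1, sub_eq_zero.1 h3, sub_eq_zero.1 h4]

end Fld

section Grp

variable {F : Type*} [Field F] [Fintype F]

theorem psl_center64 (hF : Fintype.card F = 64) :
    Subgroup.center (Matrix.ProjectiveSpecialLinearGroup (Fin 2) F) = ⊥ := by
  have hPs : IsSimpleGroup (Matrix.ProjectiveSpecialLinearGroup (Fin 2) F) :=
    Matrix.ProjectiveSpecialLinearGroup.rank_two_simple (by rw [Nat.card_eq_fintype_card]; omega)
  have h1 : ¬ ∀ a b : Matrix.ProjectiveSpecialLinearGroup (Fin 2) F, a * b = b * a := fun h =>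
    Cfsg.Agent.ClassicalGeometry.PSL2Solvable.not_isSolvable_psl F (by omega)
      (Group.isSolvable_of_comm h)
  push Not at h1
  obtain ⟨a, b, hab⟩ := h1
  rcases (inferInstance : (Subgroup.center (Matrix.ProjectiveSpecialLinearGroup (Fin 2) F)).Normal).eq_bot_or_eq_top with h | h
  · exact h
  · exact absurd (Subgroup.mem_center_iff.1 (by rw [h]; exact Subgroup.mem_top b) a) hab

theorem sl_center64 (hF : Fintype.card F = 64) {z : SpecialLinearGroup (Fin 2) F}
    (hz : z ∈ Subgroup.center (SpecialLinearGroup (Fin 2) F)) : z = 1 := by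
  have := charP_two hF
  rw [Matrix.SpecialLinearGroup.mem_center_iff] at hz
  obtain ⟨r, hr, hrz⟩ := hz
  rw [Fintype.card_fin] at hr
  have h1 : r = 1 := by
    have h2 : (r - 1) ^ 2 = 0 := by
      rw [sub_sq, hr, one_pow]
      linear_combination (1 - r) * (CharTwo.two_eq_zero (R := F))
    exact sub_eq_zero.1 (pow_eq_zero_iff (by decide) |>.1 h2)
  rw [h1, map_one] at hrz
  exact Subtype.ext hrz.symm

/-- elements normalising the image (all characteristics) -/
theorem exists_ind' (p : ℕ) [Fact p.Prime] [CharP F p] {G : Type*} [Group G] {φ : SpecialLinearGroup (Fin 2) F →* G}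
    (hF : 3 < Nat.card F)
    (hker : ∀ g, φ g = 1 ↔ g ∈ Subgroup.center (SpecialLinearGroup (Fin 2) F)) {g : G}
    (hg : ∀ s ∈ φ.range, g * s * g⁻¹ ∈ φ.range) (hg' : ∀ s ∈ φ.range, g⁻¹ * s * g ∈ φ.range) :
    ∃ (A : GL (Fin 2) F) (σ : F ≃+* F), Ind φ g (cj A * fld σ) := by
  have hk : Subgroup.center (SpecialLinearGroup (Fin 2) F) = φ.ker := by
    ext x
    rw [MonoidHom.mem_ker, hker]
  let e : ProjectiveSpecialLinearGroup (Fin 2) F ≃* φ.range :=
    (QuotientGroup.quotientMulEquivOfEq hk).trans (QuotientGroup.quotientKerEquivRange φ)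
  have he : ∀ x : SpecialLinearGroup (Fin 2) F, ((e (pr x) : φ.range) : G) = φ x := fun x => rfl
  let c : MulAut φ.range :=
    { toFun := fun s => ⟨g * s * g⁻¹, hg s s.2⟩
      invFun := fun s => ⟨g⁻¹ * s * g, hg' s s.2⟩
      left_inv := fun s => Subtype.ext (by show g⁻¹ * (g * s * g⁻¹) * g = s; group)
      right_inv := fun s => Subtype.ext (by show g * (g⁻¹ * s * g) * g⁻¹ = s; group)
      map_mul' := fun s t => Subtype.ext (by
        show g * (s * t) * g⁻¹ = g * s * g⁻¹ * (g * t * g⁻¹)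
        group) }
  obtain ⟨A, σ, hA⟩ := surj_two p ((MulAut.congr e).symm c)
  refine ⟨A, σ, fun x => ?_⟩
  have h4 : ((MulAut.congr e).symm c) (pr x) = pr ((cj A * fld σ : MulAut (SpecialLinearGroup (Fin 2) F)) x) := by
    rw [hA, lift_pr]
  have h5 : e (((MulAut.congr e).symm c) (pr x)) = c (e (pr x)) := by
    show e (e.symm (c (e (pr x)))) = _
    rw [MulEquiv.apply_symm_apply]
  rw [h4] at h5
  have h6 := congrArg Subtype.val h5
  rw [he] at h6
  rw [h6, ← he x]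
  rfl

/-- **G1**, abstract form -/
theorem g1_abs (hF : Fintype.card F = 64) {H : Type*} [Group H] (E : Subgroup H) (hEn : E.Normal)
    (hEc : Subgroup.centralizer (E : Set H) ≤ E) (e : ↥E ≃* ProjectiveSpecialLinearGroup (Fin 2) F)
    {y : H} (hy : y ∈ E) (h65 : orderOf y = 65) {g : H} (hg : Commute g y) : g ∈ Subgroup.zpowers y := by
  classical
  haveI := charP_two hF
  haveI : Fact (Nat.Prime 2) := ⟨Nat.prime_two⟩
  let φ : SpecialLinearGroup (Fin 2) F →* H := (E.subtype.comp e.symm.toMonoidHom).comp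
    (QuotientGroup.mk' (Subgroup.center (SpecialLinearGroup (Fin 2) F)))
  have hφ : ∀ x, φ x = ((e.symm (QuotientGroup.mk' (Subgroup.center (SpecialLinearGroup (Fin 2) F)) x) : ↥E) : H) :=
    fun x => rfl
  have hker : ∀ g, φ g = 1 ↔ g ∈ Subgroup.center (SpecialLinearGroup (Fin 2) F) := by
    intro g
    rw [hφ, OneMemClass.coe_eq_one, map_eq_one_iff _ e.symm.injective]
    exact QuotientGroup.eq_one_iff g
  have hinj : Function.Injective φ := by
    rw [injective_iff_map_eq_one]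
    intro x hx
    exact sl_center64 hF ((hker x).1 hx)
  have hrange : φ.range = E := by
    ext x
    constructor
    · rintro ⟨y, rfl⟩
      exact (e.symm _).2
    · intro hx
      obtain ⟨y, hy⟩ := QuotientGroup.mk'_surjective (Subgroup.center (SpecialLinearGroup (Fin 2) F)) (e ⟨x, hx⟩)
      refine ⟨y, ?_⟩
      rw [hφ, hy, e.symm_apply_apply]
  have hnorm : ∀ g : H, ∀ s ∈ φ.range, g * s * g⁻¹ ∈ φ.range := by
    intro g s hs
    rw [hrange] at hs ⊢
    exact hEn.conj_mem s hs g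
  have hnorm' : ∀ g : H, ∀ s ∈ φ.range, g⁻¹ * s * g ∈ φ.range := by
    intro g s hs
    have := hnorm g⁻¹ s hs
    rwa [inv_inv] at this
  have hcent : ∀ g : H, (∀ s ∈ φ.range, g * s = s * g) → g = 1 := by
    intro g hg
    have h1 : g ∈ E := hEc (by
      rw [Subgroup.mem_centralizer_iff]
      intro s hs
      exact (hg s (by rw [hrange]; exact hs)).symm)
    have h2 : e ⟨g, h1⟩ ∈ Subgroup.center (Matrix.ProjectiveSpecialLinearGroup (Fin 2) F) := by
      rw [Subgroup.mem_center_iff]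
      intro x
      obtain ⟨s, rfl⟩ := e.surjective x
      rw [← map_mul, ← map_mul]
      congr 1
      exact Subtype.ext (hg s (by rw [hrange]; exact s.2)).symm
    rw [psl_center64 hF, Subgroup.mem_bot, map_eq_one_iff _ e.injective] at h2
    exact congrArg Subtype.val h2
  obtain ⟨Y, hY⟩ : y ∈ φ.range := by rw [hrange]; exact hy
  have hYo : orderOf Y = 65 := by rw [← orderOf_injective φ hinj, hY, h65]
  obtain ⟨A, σ, hA⟩ := exists_ind' 2 (φ := φ) (by rw [Nat.card_eq_fintype_card]; omega) hker (hnorm g) (hnorm' g)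
  have hfix : (cj A * fld σ : MulAut (SpecialLinearGroup (Fin 2) F)) Y = Y := by
    apply hinj
    rw [← hA, hY, hg.eq, mul_inv_cancel_right]
  -- the trace
  have htr : σ (Y.1 0 0 + Y.1 1 1) = Y.1 0 0 + Y.1 1 1 := by
    have h1 : ((cj A * fld σ : MulAut (SpecialLinearGroup (Fin 2) F)) Y).1.trace = Y.1.trace := by rw [hfix]
    have h2 : ((cj A * fld σ : MulAut (SpecialLinearGroup (Fin 2) F)) Y).1 =
        (A : Matrix (Fin 2) (Fin 2) F) * (Y.1.map (σ : F →+* F)) * ((A⁻¹ : GL (Fin 2) F) : Matrix (Fin 2) (Fin 2) F) := rfl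
    rw [h2, Matrix.trace_mul_cycle, ← Units.val_mul, inv_mul_cancel, Units.val_one, Matrix.one_mul,
      Matrix.trace_fin_two, Matrix.trace_fin_two] at h1
    rw [map_add]
    exact h1
  have hσ := aut_trivial hF hYo σ htr
  subst hσ
  have hfld : (fld (RingEquiv.refl F) : MulAut (SpecialLinearGroup (Fin 2) F)) = 1 := by
    apply MulEquiv.ext
    intro x
    apply Subtype.ext
    ext i j
    rfl
  rw [hfld, mul_one] at hA hfix
  -- inner
  obtain ⟨s, hs⟩ : ∃ s : F, (A : Matrix (Fin 2) (Fin 2) F).det = s ^ 2 := by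
    refine ⟨(A : Matrix (Fin 2) (Fin 2) F).det ^ 32, ?_⟩
    rw [← pow_mul]
    have h1 := FiniteField.pow_card (A : Matrix (Fin 2) (Fin 2) F).det
    rw [hF] at h1
    exact h1.symm
  obtain ⟨D, hD⟩ := cj_inner hs
  have hgD := hA.mem hcent hD
  rw [hD] at hfix
  obtain ⟨i, hi⟩ := cent65 hF hYo (D := D) (by rw [mul_inv_eq_iff_eq_mul] at hfix; exact hfix)
  rw [hgD, hi, map_pow, hY]
  exact Subgroup.npow_mem_zpowers y i

/-- **G1** -/
theorem G1 {G : Type*} [Group G] [Finite G] (hF : Fintype.card F = 64) (H : Subgroup G)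
    (e : ↥(Cfsg.generalizedFittingSubgroup ↥H) ≃* Matrix.ProjectiveSpecialLinearGroup (Fin 2) F)
    (y : ↥H) (hy : y ∈ Cfsg.generalizedFittingSubgroup ↥H) (h65 : orderOf y = 65) (g : ↥H) (hg : Commute g y) :
    g ∈ Subgroup.zpowers y :=
  g1_abs hF _ Cfsg.Agent.Lib.GenFitting.genFitting_normal Cfsg.Agent.Lib.GenFitting.centralizer_genFitting_le e hy h65 hg

end Grp

end Cfsg.Agent.H950.E8X
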